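import Cfsg.Agent.H6.ChevBr

/-!
The homomorphism `N → W` with kernel `H`.
-/

set_option autoImplicit false
set_option linter.unusedSectionVars false
set_option maxHeartbeats 400000

namespace Cfsg.Agent.H6
open Cfsg.Lie
open scoped Matrix

section
variable {D : ChevalleyDatum} {N : ℕ} {η : ℕ → ℕ → ℤ} {rc : ℕ → ℕ → ℤ} {F : Type*} [Field F]

namespace Good
variable (hG : Good D N η rc) (hE : Ext D rc)

/-- the homomorphism `N → W` -/
noncomputable def toW (F : Type*) [Field F] : ↥(D.monomialSubgroup F) →* hG.W where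
  toFun n := (hG.exists_mon (F := F) hE n.2).choose
  map_one' := by
    obtain ⟨χ, h⟩ := (hG.exists_mon (F := F) hE (1 : ↥(D.monomialSubgroup F)).2).choose_spec
    exact hG.mon_unique hE h Mon.one
  map_mul' := by
    intro a b
    obtain ⟨χ, h⟩ := (hG.exists_mon (F := F) hE (a * b).2).choose_spec
    obtain ⟨χ₁, h₁⟩ := (hG.exists_mon (F := F) hE a.2).choose_spec
    obtain ⟨χ₂, h₂⟩ := (hG.exists_mon (F := F) hE b.2).choose_spec
    exact hG.mon_unique hE h (h₁.mul h₂)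

theorem toW_spec (n : ↥(D.monomialSubgroup F)) : ∃ χ, Mon hG (xg D F) n (hG.toW hE F n) χ :=
  (hG.exists_mon (F := F) hE n.2).choose_spec

theorem toW_eq {n : ↥(D.monomialSubgroup F)} {w : hG.W} {χ : Fin D.nroots → Fˣ} (h : Mon hG (xg D F) n w χ) :
    hG.toW hE F n = w := by
  obtain ⟨χ', h'⟩ := hG.toW_spec hE n
  exact hG.mon_unique hE h' h

theorem toW_surjective : Function.Surjective (hG.toW hE F) := by
  intro w
  obtain ⟨n, hn, χ, h⟩ := hG.exists_rep (F := F) hE w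
  exact ⟨⟨n, hn⟩, hG.toW_eq hE h⟩

theorem toW_ker : (hG.toW hE F).ker = (D.diagonalSubgroup F).subgroupOf (D.monomialSubgroup F) := by
  ext ⟨n, hn⟩
  rw [MonoidHom.mem_ker, Subgroup.mem_subgroupOf]
  obtain ⟨χ, h⟩ := hG.toW_spec hE ⟨n, hn⟩
  constructor
  · intro h1
    rw [h1] at h
    exact hG.mem_diagonal_of_mon hE hn h
  · intro h1
    change n ∈ _ at h1
    rw [← hG.HA_eq] at h1
    obtain ⟨χ', h'⟩ := hG.HA_mon (hG.rdn hE) h1
    exact hG.toW_eq hE h'

theorem toW_ng (i : Fin D.rank) {g : ↥(D.monomialSubgroup F)}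
    (hg : ((g : GL D.Idx F) : Matrix D.Idx D.Idx F) = D.nMat F (D.simple i) 1) : hG.toW hE F g = hG.s i := by
  obtain ⟨χ, h⟩ := hG.mon_ng (F := F) hE i
  have h1 : (g : GL D.Idx F) = ng D F i := hG.eq_ngr_iff.1 hg
  rw [← h1] at h
  exact hG.toW_eq hE h

end Good
end

end Cfsg.Agent.H6
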