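import Cfsg.Agent.H6.TwOrder
import Cfsg.Agent.H6.TwTorE6
import Cfsg.Agent.H6.TwTorD4

/-!
The orders of 2E6 and 3D4.
-/

set_option autoImplicit false
set_option linter.unusedSectionVars false
set_option maxHeartbeats 400000
set_option maxRecDepth 10000

namespace Cfsg.Agent.H6
open Cfsg.Lie

section
variable {D : ChevalleyDatum} {N : ℕ} {η : ℕ → ℕ → ℤ} {rc : ℕ → ℕ → ℤ} {F : Type*} [Field F]
  {m : ℕ} {rho inv lam pi : ℕ → ℕ} {ep : ℕ → ℤ} {e : ℕ} {σ : ↥(D.group F) →* ↥(D.group F)}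
  {ι : Type} {L : ι → List (Fin D.rank)}

/-- order of a twisted group, when `|K| = q ^ μ` -/
theorem TwGrp.card_eq {h : TwCtx D N η rc F m rho inv lam pi ep e σ} {G₁ : Subgroup (GL D.Idx F)} (hT : TwGrp h L G₁) [Fintype F]
    {μ q : ℕ} (hμ : μ ≠ 0) (hK : Fintype.card F = q ^ μ)
    (hc : ∀ j, Nat.card ↥(US (xg D F) (h.G.Um (h.wJ L j)) ⊓ fixS σ) ^ μ = Nat.card F ^ len h.G.s (h.wJ L j)) :
    Nat.card G₁ = Nat.card ↥(D.posUnipotent F ⊓ G₁) * Nat.card ↥(D.diagonalSubgroup F ⊓ G₁) * ∑ᶠ w : h.Wr, q ^ len h.G.s w.1 := by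
  rw [hT.card_group₁]
  congr 1
  apply finsum_congr
  intro w
  have h1 := hT.card_fix hc w.2
  rw [Nat.card_eq_fintype_card (α := F), hK, ← pow_mul, mul_comm μ, pow_mul] at h1
  exact Nat.pow_left_injective hμ h1

theorem cast_sum_Wr (h : TwCtx D N η rc F m rho inv lam pi ep e σ) (q : ℕ) :
    ((∑ᶠ w : h.Wr, q ^ len h.G.s w.1 : ℕ) : ℤ) = ∑ᶠ w : h.Wr, (q : ℤ) ^ len h.G.s w.1 := by
  have : Finite h.G.W := inferInstance
  have : Fintype h.Wr := Fintype.ofFinite _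
  rw [finsum_eq_sum_of_fintype, finsum_eq_sum_of_fintype, Nat.cast_sum]
  simp

end

namespace WE6
variable {K : Type*} [Field K] [Fintype K] {q : ℕ}

theorem card_group (hq : IsPrimePow q) (hK : Fintype.card K = q ^ 2) :
    Nat.gcd 3 (q + 1) * Nat.card ↥(twistedE6 K q) =
      q ^ 36 * (q ^ 2 - 1) * (q ^ 5 + 1) * (q ^ 6 - 1) * (q ^ 8 - 1) * (q ^ 9 + 1) * (q ^ 12 - 1) := by
  obtain ⟨σ, h⟩ := exists_ctx two_ne_zero hq hK
  have hT := grp h (pow_pow hK)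
  have h1 := hT.card_eq two_ne_zero hK (card_sq h hq.ne_zero hK)
  rw [card_pos h hq.ne_zero hK] at h1
  have h2 := card_diag hq hK
  have h3 := sum_Wr h (q : ℤ)
  have hq1 : 1 ≤ q := hq.one_lt.le
  have h4 : (Nat.gcd 3 (q + 1) : ℤ) * (Nat.card ↥(chevE6.diagonalSubgroup K ⊓ twistedE6 K q) : ℤ) = ((q : ℤ) - 1) ^ 4 * ((q : ℤ) + 1) ^ 2 := by
    rw [← Nat.cast_mul, h2]; push_cast [Nat.cast_sub hq1]; rfl
  have key : ((Nat.gcd 3 (q + 1) * Nat.card ↥(twistedE6 K q) : ℕ) : ℤ) =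
      ((q ^ 36 * (q ^ 2 - 1) * (q ^ 5 + 1) * (q ^ 6 - 1) * (q ^ 8 - 1) * (q ^ 9 + 1) * (q ^ 12 - 1) : ℕ) : ℤ) := by
    rw [h1, Nat.cast_mul, Nat.cast_mul, Nat.cast_mul, cast_sum_Wr]
    push_cast [Nat.cast_sub (Nat.one_le_pow 2 q hq1), Nat.cast_sub (Nat.one_le_pow 6 q hq1), Nat.cast_sub (Nat.one_le_pow 8 q hq1),
      Nat.cast_sub (Nat.one_le_pow 12 q hq1)]
    calc (Nat.gcd 3 (q + 1) : ℤ) * ((q : ℤ) ^ 36 * (Nat.card ↥(chevE6.diagonalSubgroup K ⊓ twistedE6 K q) : ℤ) * ∑ᶠ w : h.Wr, (q : ℤ) ^ len h.G.s w.1)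
        = (q : ℤ) ^ 36 * ((∑ᶠ w : h.Wr, (q : ℤ) ^ len h.G.s w.1) * ((Nat.gcd 3 (q + 1) : ℤ) * (Nat.card ↥(chevE6.diagonalSubgroup K ⊓ twistedE6 K q) : ℤ))) := by ring
      _ = _ := by rw [h4, h3]; ring
  exact_mod_cast key

end WE6

namespace WD4a
variable {K : Type*} [Field K] [Fintype K] {q : ℕ}

theorem card_group (hq : IsPrimePow q) (hK : Fintype.card K = q ^ 3) :
    Nat.card ↥(twistedD4 K q) = q ^ 12 * (q ^ 2 - 1) * (q ^ 6 - 1) * (q ^ 8 + q ^ 4 + 1) := by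
  obtain ⟨σ, h⟩ := exists_ctx three_ne_zero hq hK
  have hT := grp h (pow_pow hK)
  have h1 := hT.card_eq three_ne_zero hK (card_cube h hq.ne_zero hK)
  rw [card_pos h hq.ne_zero hK] at h1
  have h2 := card_diag hq hK
  have h3 := sum_Wr h (q : ℤ)
  have hq1 : 1 ≤ q := hq.one_lt.le
  have h4 : (Nat.card ↥(chevD4.diagonalSubgroup K ⊓ twistedD4 K q) : ℤ) = ((q : ℤ) - 1) * ((q : ℤ) ^ 3 - 1) := by
    rw [h2]; push_cast [Nat.cast_sub hq1, Nat.cast_sub (Nat.one_le_pow 3 q hq1)]; rfl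
  have key : ((Nat.card ↥(twistedD4 K q) : ℕ) : ℤ) =
      ((q ^ 12 * (q ^ 2 - 1) * (q ^ 6 - 1) * (q ^ 8 + q ^ 4 + 1) : ℕ) : ℤ) := by
    rw [h1, Nat.cast_mul, Nat.cast_mul, cast_sum_Wr, h4, h3]
    push_cast [Nat.cast_sub (Nat.one_le_pow 2 q hq1), Nat.cast_sub (Nat.one_le_pow 6 q hq1)]
    ring
  exact_mod_cast key

end WD4a
end Cfsg.Agent.H6
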