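import Cfsg.Agent.H6.CtE
import Cfsg.Agent.H6.TabA2
import Cfsg.Agent.H6.StTab

/-!
The Curtis-Tits theorem: the conjugation relations in rank two subsystems follow from additivity and the commutator formula.
-/

set_option autoImplicit false
set_option linter.unusedSectionVars false
set_option maxHeartbeats 400000
set_option maxRecDepth 100000

namespace Cfsg.Agent.H6
open Cfsg.Lie
open scoped Matrix

namespace TA2
theorem e_cs : chkCS (nat_lit 2) S CO = true := by decide +kernel
theorem e_cz : chkCZ (nat_lit 2) (nat_lit 6) CO MO = true := by decide +kernel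
theorem e_compl : chkCompl (nat_lit 2) (nat_lit 6) (nat_lit 11) G CA MO = true := by decide +kernel
theorem e_len : chkLen2 (nat_lit 6) (nat_lit 11) G = true := by decide +kernel
theorem ext : Ext chevA2 (cO MO) := chk.ext ⟨e_cs, e_cz, e_compl, Or.inl e_len⟩
theorem prc_0 : chkPair chevA2 (4, 2, 5, 0) = true := by decide +kernel
theorem prc_1 : chkPair chevA2 (1, 0, 3, 0) = true := by decide +kernel
theorem prc_2 : chkPair chevA2 (3, 1, 5, 0) = true := by decide +kernel
theorem prc_3 : chkPair chevA2 (2, 0, 4, 0) = true := by decide +kernel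
theorem pairs : ∀ i < chevA2.rank, PairOK chevA2 (chevA2.simple i) ∧ PairOK chevA2 (chevA2.neg (chevA2.simple i)) := by
  intro i hi
  match i, hi with
  | 0, _ => exact ⟨pairOK_of_chk prc_0, pairOK_of_chk prc_1⟩
  | 1, _ => exact ⟨pairOK_of_chk prc_2, pairOK_of_chk prc_3⟩
  | (k + 2), hk => exact absurd hk (by change ¬ (k + 2 < 2); omega)
theorem len2 : ∀ r < chevA2.nroots, ∀ s < chevA2.nroots, (chevA2.chainEntry r s).length ≤ 2 := chk.len2 e_len
theorem cw : CWt chevA2 (etF E) := good.cwt (Or.inr len2)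
theorem chkR : Chk chevA2 chevA2.rank chevA2.nroots 11 3 G S P E CA CO MO := by
  rw [chk.rank, chk.nroots]; exact chk
end TA2

namespace TB2
theorem chkR : Chk chevB2 chevB2.rank chevB2.nroots 33 4 G S P E CA CO MO := by
  rw [chk.rank, chk.nroots]; exact chk
end TB2

section
variable {D : ChevalleyDatum} {N : ℕ} {η : ℕ → ℕ → ℤ} {rc : ℕ → ℕ → ℤ} {F : Type*} [Field F] {B : Type*} [Group B]

/-- the conjugation relations follow from (R1), (R2) -/
theorem rd_nc (hG : Good D N η rc) (hE : Ext D rc) (hC : CWt D η)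
    (hP : ∀ i < D.rank, PairOK D (D.simple i) ∧ PairOK D (D.neg (D.simple i))) {Z : ℕ → F → B} (hZ : RD D Z) (i : Fin D.rank)
    {r : ℕ} (hr : r < D.nroots) (t : F) :
    nX D Z (D.simple i) 1 * Z r t * (nX D Z (D.simple i) 1)⁻¹ = Z (D.reflectRoot i r) (((η i r : ℤ) : F) * t) := by
  obtain ⟨θ, hθ⟩ := exists_theta' (K := F) hG hE
  obtain ⟨τ, hτ⟩ := sc_lift hG hZ
  have h1 := (sc_ov hG hθ).nc hG hE hC hP i 1 hr t
  have hsi := hG.simple_lt i i.2
  have h2 : τ (nX D (sX D F) (D.simple i) ((1 : Fˣ) : F)) = nX D Z (D.simple i) 1 := by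
    unfold nX
    rw [map_mul, map_mul, hτ _ hsi, hτ _ (hG.neg_lt' hsi), Units.val_one]
  have h3 := congrArg τ h1
  rw [map_mul, map_mul, map_inv, h2, hτ _ hr, hτ _ (hG.w_lt i i.2 _ hr), one_zpow, Units.val_one, mul_one] at h3
  exact h3

/-- additivity and commutator relations in the rank two subsystems -/
structure CT1 (D : ChevalleyDatum) (rc : ℕ → ℕ → ℤ) (X : ℕ → F → B) : Prop where
  add : ∀ i j : Fin D.rank, ∀ r, InR D rc i j r → ∀ t u : F, X r (t + u) = X r t * X r u
  comm : ∀ i j : Fin D.rank, ∀ r, InR D rc i j r → ∀ s, InR D rc i j s → s ≠ r → s ≠ D.neg r → ∀ t u : F,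
    X s u * X r t = X r t * X s u * xw X (D.commWord F r s t u)

/-- embedding of a datum of rank two -/
structure Emb (D D' : ChevalleyDatum) (η η' rc : ℕ → ℕ → ℤ) (i j : Fin D.rank) (T : ℕ → ℕ) : Prop where
  rk : D'.rank = 2
  mem : ∀ r < D'.nroots, InR D rc i j (T r)
  ng : ∀ r < D'.nroots, T (D'.neg r) = D.neg (T r)
  s0 : T (D'.simple 0) = D.simple i
  s1 : T (D'.simple 1) = D.simple j
  inj : ∀ r < D'.nroots, ∀ s < D'.nroots, T s = T r → s = r
  comm : ∀ r < D'.nroots, ∀ s < D'.nroots, s ≠ r → s ≠ D'.neg r → D.commTerms (T r) (T s) = (D'.commTerms r s).map fun c => (T c.1, c.2)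
  w0 : ∀ r < D'.nroots, D.reflectRoot i (T r) = T (D'.reflectRoot 0 r) ∧ η i (T r) = η' 0 r
  w1 : ∀ r < D'.nroots, D.reflectRoot j (T r) = T (D'.reflectRoot 1 r) ∧ η j (T r) = η' 1 r
  surj : ∀ q, InR D rc i j q → ∃ r < D'.nroots, T r = q

/-- the relation `n_i X_r n_i⁻¹ = X_{w_i r}` -/
def NCr (D : ChevalleyDatum) (η : ℕ → ℕ → ℤ) (X : ℕ → F → B) (i r : ℕ) : Prop :=
  ∀ t : F, nX D X (D.simple i) 1 * X r t * (nX D X (D.simple i) 1)⁻¹ = X (D.reflectRoot i r) (((η i r : ℤ) : F) * t)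

variable {D' : ChevalleyDatum} {N' : ℕ} {η' : ℕ → ℕ → ℤ} {rc' : ℕ → ℕ → ℤ}

theorem emb_nc {X : ℕ → F → B} (hX : CT1 D rc X) (hG' : Good D' N' η' rc') (hE' : Ext D' rc') (hC' : CWt D' η')
    (hP' : ∀ i < D'.rank, PairOK D' (D'.simple i) ∧ PairOK D' (D'.neg (D'.simple i))) {i j : Fin D.rank} {T : ℕ → ℕ}
    (hT : Emb D D' η η' rc i j T) {q : ℕ} (hq : InR D rc i j q) : NCr D η X i q ∧ NCr D η X j q := by
  have hZ : RD D' (fun r t => X (T r) t) := by
    refine ⟨fun r hr t u => hX.add i j _ (hT.mem r hr) t u, fun r hr s hs h1 h2 t u => ?_⟩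
    have h3 := hX.comm i j _ (hT.mem r hr) _ (hT.mem s hs) (fun h => h1 (hT.inj r hr s hs h))
      (fun h => h2 (hT.inj _ (hG'.neg_lt' hr) _ hs (by rw [hT.ng r hr]; exact h))) t u
    rw [h3]
    congr 1
    unfold xw ChevalleyDatum.commWord
    rw [hT.comm r hr s hs h1 h2, List.map_map, List.map_map, List.map_map]
    rfl
  obtain ⟨r, hr, rfl⟩ := hT.surj q hq
  constructor
  · intro t
    have h0 : (0 : ℕ) < D'.rank := by rw [hT.rk]; norm_num
    have h1 := rd_nc hG' hE' hC' hP' hZ ⟨0, h0⟩ hr t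
    have h2 : nX D' (fun r t => X (T r) t) (D'.simple ((⟨0, h0⟩ : Fin D'.rank) : ℕ)) (1 : F) = nX D X (D.simple i) 1 := by
      unfold nX
      dsimp only
      rw [hT.ng _ (hG'.simple_lt 0 h0), hT.s0]
    rw [h2] at h1
    rw [(hT.w0 r hr).1, (hT.w0 r hr).2]
    exact h1
  · intro t
    have h0 : (1 : ℕ) < D'.rank := by rw [hT.rk]; norm_num
    have h1 := rd_nc hG' hE' hC' hP' hZ ⟨1, h0⟩ hr t
    have h2 : nX D' (fun r t => X (T r) t) (D'.simple ((⟨1, h0⟩ : Fin D'.rank) : ℕ)) (1 : F) = nX D X (D.simple j) 1 := by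
      unfold nX
      dsimp only
      rw [hT.ng _ (hG'.simple_lt 1 h0), hT.s1]
    rw [h2] at h1
    rw [(hT.w1 r hr).1, (hT.w1 r hr).2]
    exact h1

/-- pairs of orthogonal simple roots -/
structure Orth (D : ChevalleyDatum) (η rc : ℕ → ℕ → ℤ) (i j : Fin D.rank) : Prop where
  cov : ∀ r, InR D rc i j r → (r = D.simple i ∨ r = D.neg (D.simple i)) ∨ (r = D.simple j ∨ r = D.neg (D.simple j))
  w : ∀ r, (r = D.simple j ∨ r = D.neg (D.simple j)) → D.reflectRoot i r = r ∧ η i r = 1
  comm : ∀ r, (r = D.simple j ∨ r = D.neg (D.simple j)) → ∀ a, (a = D.simple i ∨ a = D.neg (D.simple i)) →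
    r ≠ a ∧ r ≠ D.neg a ∧ D.commTerms a r = []

theorem orth_nc {X : ℕ → F → B} (hG : Good D N η rc) (hX : CT1 D rc X) {i j : Fin D.rank} (h : Orth D η rc i j) {r : ℕ}
    (hr : r = D.simple j ∨ r = D.neg (D.simple j)) : NCr D η X i r := by
  have hi : InR D rc i j (D.simple i) := InR.simple hG i j
  have hrR : InR D rc i j r := by
    rcases hr with rfl | rfl
    · exact (InR.simple hG j i).symm
    · exact ((InR.simple hG j i).symm).neg hG
  have hcomm : ∀ a, (a = D.simple i ∨ a = D.neg (D.simple i)) → ∀ t u : F, Commute (X a t) (X r u) := by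
    intro a ha t u
    have haR : InR D rc i j a := by
      rcases ha with rfl | rfl
      · exact hi
      · exact hi.neg hG
    obtain ⟨h1, h2, h3⟩ := h.comm r hr a ha
    have h4 := hX.comm i j a haR r hrR h1 h2 t u
    have h5 : D.commWord F a r t u = [] := by
      unfold ChevalleyDatum.commWord
      rw [h3]; rfl
    rw [h5] at h4
    have h6 : xw X ([] : List (ℕ × F)) = 1 := rfl
    rw [h6, mul_one] at h4
    exact h4.symm
  intro t
  obtain ⟨h1, h2⟩ := h.w r hr
  rw [h1, h2, Int.cast_one, one_mul]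
  have h3 : Commute (nX D X (D.simple i) 1) (X r t) := by
    unfold nX
    exact ((hcomm _ (Or.inl rfl) _ _).mul_left (hcomm _ (Or.inr rfl) _ _)).mul_left (hcomm _ (Or.inl rfl) _ _)
  rw [h3.eq, mul_inv_cancel_right]

/-- the relations of all pairs -/
theorem ct2_of_ct1 {X : ℕ → F → B} (hG : Good D N η rc) (hX : CT1 D rc X)
    (hadj : ∀ i : Fin D.rank, ∃ j : Fin D.rank, ∀ q, InR D rc i j q → NCr D η X i q)
    (h : ∀ i j : Fin D.rank, i ≠ j → (∀ q, InR D rc i j q → NCr D η X i q) ∨ Orth D η rc i j) : CT2 D η rc X := by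
  have hself : ∀ (i : Fin D.rank) (q : ℕ), (q = D.simple i ∨ q = D.neg (D.simple i)) → NCr D η X i q := by
    intro i q hq
    obtain ⟨j, hj⟩ := hadj i
    apply hj
    rcases hq with rfl | rfl
    · exact InR.simple hG i j
    · exact (InR.simple hG i j).neg hG
  refine ⟨hX.add, ?_, hX.comm⟩
  intro i j r hr
  by_cases hij : i = j
  · subst hij
    apply hself i r
    have key : ∀ m < D.rank, m ≠ i → rc r m = 0 := fun m hm hmi => hr.2 m hm hmi hmi
    rcases hG.pos_or_neg ⟨r, hr.1⟩ with h1 | h1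
    · left; exact hG.eq_simple_of_rc hr.1 h1 key
    · right
      have h2 := hG.eq_simple_of_rc (hG.neg_lt' hr.1) (hG.N_le_neg hr.1 h1) (i := i) (fun m hm hmk => by
        rw [hG.rc_neg m hm _ hr.1, key m hm hmk, neg_zero])
      rw [← h2, hG.neg_neg' hr.1]
  · rcases h i j hij with h1 | h1
    · exact h1 r hr
    · rcases h1.cov r hr with h2 | h2
      · exact hself i r h2
      · exact orth_nc hG hX h1 h2

end

/-! ### checks -/

/-- table lookup -/
def tN (T : List ℕ) (r : ℕ) : ℕ := T.getD r 0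

/-- embedding check -/
def chkEmb (l n W : ℕ) (G : List (List ℕ)) (S P E MO : ℕ) (n' W' : ℕ) (G' : List (List ℕ)) (S' P' E' : ℕ) (i j : ℕ) (T : List ℕ) : Bool :=
  (allB n' fun r => chkInR l n MO i j (tN T r) && (Nat.beq (tN T (ngF n' r)) (ngF n (tN T r)) &&
    (Nat.beq (wP P i (tN T r)) (tN T (wP P' 0 r)) && (decide (etF E i (tN T r) = etF E' 0 r) &&
    (Nat.beq (wP P j (tN T r)) (tN T (wP P' 1 r)) && (decide (etF E j (tN T r) = etF E' 1 r) &&
    allB n' fun s => cond (Nat.beq s r) true (!Nat.beq (tN T s) (tN T r) && (cond (Nat.beq s (ngF n' r)) true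
      (decide (commTermsG (chE n W G) (tN T r) (tN T s) = (commTermsG (chE n' W' G') r s).map fun c => (tN T c.1, c.2)))))))))))
  && (Nat.beq (tN T (sP S' 0)) (sP S i) && (Nat.beq (tN T (sP S' 1)) (sP S j) &&
    (allB n fun q => cond (chkInR l n MO i j q) (T.any fun x => Nat.beq x q) true && Nat.beq T.length n')))

/-- orthogonality check -/
def chkOrth (l n W : ℕ) (G : List (List ℕ)) (S P E MO : ℕ) (i j : ℕ) : Bool :=
  (allB n fun q => cond (chkInR l n MO i j q)
    ((Nat.beq q (sP S i) || Nat.beq q (ngF n (sP S i))) || (Nat.beq q (sP S j) || Nat.beq q (ngF n (sP S j)))) true) &&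
  ([sP S j, ngF n (sP S j)].all fun r => Nat.beq (wP P i r) r && (decide (etF E i r = 1) &&
    ([sP S i, ngF n (sP S i)].all fun a => !Nat.beq r a && (!Nat.beq r (ngF n a) && (commTermsG (chE n W G) a r).isEmpty))))

section
variable {D : ChevalleyDatum} {W N : ℕ} {G : List (List ℕ)} {S P E CA CO MO : ℕ}
variable {D' : ChevalleyDatum} {W' N' : ℕ} {G' : List (List ℕ)} {S' P' E' CA' CO' MO' : ℕ}

theorem chkInR_of {i j : Fin D.rank} {r : ℕ} (h : InR D (cO MO) i j r) : chkInR D.rank D.nroots MO i j r = true := by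
  unfold chkInR
  rw [Bool.and_eq_true]
  refine ⟨ble_true h.1, allB_intro fun k hk => ?_⟩
  by_cases h1 : k = i
  · rw [bpos h1, cond_true]
  · rw [bneg h1, cond_false]
    by_cases h2 : k = j
    · rw [bpos h2, cond_true]
    · rw [bneg h2, cond_false, decide_eq_true_eq]
      exact h.2 k hk h1 h2

theorem emb_of_chk (h : Chk D D.rank D.nroots W N G S P E CA CO MO) (h' : Chk D' D'.rank D'.nroots W' N' G' S' P' E' CA' CO' MO')
    (hrk : D'.rank = 2) {i j : Fin D.rank} {T : List ℕ}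
    (hT : chkEmb D.rank D.nroots W G S P E MO D'.nroots W' G' S' P' E' i j T = true) :
    Emb D D' (etF E) (etF E') (cO MO) i j (tN T) := by
  have hG := h.good
  have hG' := h'.good
  have hneg := chkNeg_spec h.neg
  have hneg' := chkNeg_spec h'.neg
  have hch := (chkChain_spec h.chain).2
  have hch' := (chkChain_spec h'.chain).2
  have hs : ∀ i < D.rank, D.simple i = sP S i := by
    intro i hi; rw [chkSimple_spec h.simple]; exact smF_lt hi
  have hs' : ∀ i < D'.rank, D'.simple i = sP S' i := by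
    intro i hi; rw [chkSimple_spec h'.simple]; exact smF_lt hi
  have h0 : 0 < D'.rank := by rw [hrk]; norm_num
  have h1 : 1 < D'.rank := by rw [hrk]; norm_num
  unfold chkEmb at hT
  rw [Bool.and_eq_true, Bool.and_eq_true, Bool.and_eq_true] at hT
  obtain ⟨a1, a2, a3, a4⟩ := hT
  have key : ∀ r < D'.nroots, InR D (cO MO) i j (tN T r) ∧ tN T (D'.neg r) = D.neg (tN T r) ∧
      (D.reflectRoot i (tN T r) = tN T (D'.reflectRoot 0 r) ∧ etF E i (tN T r) = etF E' 0 r) ∧
      (D.reflectRoot j (tN T r) = tN T (D'.reflectRoot 1 r) ∧ etF E j (tN T r) = etF E' 1 r) ∧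
      ∀ s < D'.nroots, s ≠ r → tN T s ≠ tN T r ∧ (s ≠ D'.neg r → D.commTerms (tN T r) (tN T s) =
        (D'.commTerms r s).map fun c => (tN T c.1, c.2)) := by
    intro r hr
    have b := allB_spec a1 r hr
    rw [Bool.and_eq_true, Bool.and_eq_true, Bool.and_eq_true, Bool.and_eq_true, Bool.and_eq_true, Bool.and_eq_true] at b
    obtain ⟨b1, b2, b3, b4, b5, b6, b7⟩ := b
    have c1 := inR_of_chk b1
    refine ⟨c1, ?_, ⟨?_, of_decide_eq_true b4⟩, ⟨?_, of_decide_eq_true b6⟩, ?_⟩
    · rw [hneg, hneg']; exact Nat.eq_of_beq_eq_true b2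
    · rw [h.hw i i.2 _ c1.1, h'.hw 0 h0 _ hr]; exact Nat.eq_of_beq_eq_true b3
    · rw [h.hw j j.2 _ c1.1, h'.hw 1 h1 _ hr]; exact Nat.eq_of_beq_eq_true b5
    · intro s hs hsr
      have b8 := allB_spec b7 s hs
      rw [bneg hsr, cond_false, Bool.and_eq_true] at b8
      refine ⟨?_, fun hsn => ?_⟩
      · intro he
        have := b8.1
        rw [he] at this
        simp at this
      · have b9 := b8.2
        rw [bneg (by rw [← hneg']; exact hsn), cond_false, decide_eq_true_eq] at b9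
        rw [commTerms_eq, commTerms_eq, hch, hch']
        exact b9
  refine ⟨hrk, fun r hr => (key r hr).1, fun r hr => (key r hr).2.1, ?_, ?_, ?_, ?_, fun r hr => (key r hr).2.2.1,
    fun r hr => (key r hr).2.2.2.1, ?_⟩
  · rw [hs' 0 h0, hs i i.2]; exact Nat.eq_of_beq_eq_true a2
  · rw [hs' 1 h1, hs j j.2]; exact Nat.eq_of_beq_eq_true a3
  · intro r hr s hs he
    by_contra hsr
    exact ((key r hr).2.2.2.2 s hs hsr).1 he
  · intro r hr s hs hsr hsn
    exact ((key r hr).2.2.2.2 s hs hsr).2 hsn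
  · intro q hq
    have b := allB_spec a4 q hq.1
    rw [chkInR_of hq, cond_true, Bool.and_eq_true, List.any_eq_true] at b
    obtain ⟨⟨x, hx, hxq⟩, hlen⟩ := b
    obtain ⟨k, hk, hkx⟩ := List.mem_iff_getElem.1 hx
    refine ⟨k, by rw [← Nat.eq_of_beq_eq_true hlen]; exact hk, ?_⟩
    unfold tN
    rw [List.getD_eq_getElem _ _ hk, hkx]
    exact Nat.eq_of_beq_eq_true hxq

theorem orth_of_chk (h : Chk D D.rank D.nroots W N G S P E CA CO MO) {i j : Fin D.rank}
    (hT : chkOrth D.rank D.nroots W G S P E MO i j = true) : Orth D (etF E) (cO MO) i j := by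
  have hG := h.good
  have hneg := chkNeg_spec h.neg
  have hch := (chkChain_spec h.chain).2
  have hs : ∀ i < D.rank, D.simple i = sP S i := by
    intro i hi; rw [chkSimple_spec h.simple]; exact smF_lt hi
  unfold chkOrth at hT
  rw [Bool.and_eq_true] at hT
  obtain ⟨a1, a2⟩ := hT
  have key : ∀ r, (r = D.simple j ∨ r = D.neg (D.simple j)) → (D.reflectRoot i r = r ∧ etF E i r = 1) ∧
      ∀ a, (a = D.simple i ∨ a = D.neg (D.simple i)) → r ≠ a ∧ r ≠ D.neg a ∧ D.commTerms a r = [] := by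
    intro r hr
    have hrl : r < D.nroots := by
      rcases hr with rfl | rfl
      · exact hG.simple_lt j j.2
      · exact hG.neg_lt' (hG.simple_lt j j.2)
    have b : (Nat.beq (wP P i r) r && (decide (etF E i r = 1) &&
        ([sP S i, ngF D.nroots (sP S i)].all fun a => !Nat.beq r a && (!Nat.beq r (ngF D.nroots a) && (commTermsG (chE D.nroots W G) a r).isEmpty)))) = true := by
      apply List.all_eq_true.1 a2 r
      rcases hr with rfl | rfl
      · rw [hs j j.2]; exact List.mem_cons_self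
      · rw [hs j j.2, hneg]; exact List.mem_cons_of_mem _ List.mem_cons_self
    rw [Bool.and_eq_true, Bool.and_eq_true] at b
    obtain ⟨b1, b2, b3⟩ := b
    refine ⟨⟨?_, of_decide_eq_true b2⟩, ?_⟩
    · rw [h.hw i i.2 _ hrl]; exact Nat.eq_of_beq_eq_true b1
    · intro a ha
      have c := List.all_eq_true.1 b3 a (by
        rcases ha with rfl | rfl
        · rw [hs i i.2]; exact List.mem_cons_self
        · rw [hs i i.2, hneg]; exact List.mem_cons_of_mem _ List.mem_cons_self)
      rw [Bool.and_eq_true, Bool.and_eq_true, List.isEmpty_iff] at c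
      obtain ⟨c1, c2, c3⟩ := c
      refine ⟨?_, ?_, ?_⟩
      · intro he; rw [he] at c1; simp at c1
      · intro he; rw [hneg] at he; rw [← he] at c2; simp at c2
      · rw [commTerms_eq, hch]; exact c3
  refine ⟨?_, fun r hr => (key r hr).1, fun r hr => (key r hr).2⟩
  intro r hr
  have b := allB_spec a1 r hr.1
  rw [chkInR_of hr, cond_true, Bool.or_eq_true, Bool.or_eq_true, Bool.or_eq_true] at b
  rw [hs i i.2, hs j j.2, hneg]
  rcases b with (b | b) | (b | b)
  · exact Or.inl (Or.inl (Nat.eq_of_beq_eq_true b))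
  · exact Or.inl (Or.inr (Nat.eq_of_beq_eq_true b))
  · exact Or.inr (Or.inl (Nat.eq_of_beq_eq_true b))
  · exact Or.inr (Or.inr (Nat.eq_of_beq_eq_true b))

end
end Cfsg.Agent.H6
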