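import Cfsg.Agent.H6.CtF
import Cfsg.Prelude.Def_CurtisTits

/-!
The Curtis-Tits theorem: tables for the pairs of simple roots, the presentation.
-/

set_option autoImplicit false
set_option linter.unusedSectionVars false
set_option maxHeartbeats 400000
set_option maxRecDepth 100000

namespace Cfsg.Agent.H6
open Cfsg.Lie
open scoped Matrix

/-- all pairs of simple roots are covered -/
def chkPairs (l : ℕ) (chkO : ℕ → ℕ → Bool) (L : List (Fin l × Fin l × List ℕ)) : Bool :=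
  allB l fun i => (L.any fun e => Nat.beq e.1 i || Nat.beq e.2.1 i) &&
    allB l fun j => cond (Nat.beq i j) true
      ((L.any fun e => (Nat.beq e.1 i && Nat.beq e.2.1 j) || (Nat.beq e.1 j && Nat.beq e.2.1 i)) || chkO i j)

section
variable {D : ChevalleyDatum} {W N : ℕ} {G : List (List ℕ)} {S P E CA CO MO : ℕ} {F : Type*} [Field F] {B : Type*} [Group B]

theorem ct2_of_tables (h : Chk D D.rank D.nroots W N G S P E CA CO MO) {LA LB : List (Fin D.rank × Fin D.rank × List ℕ)}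
    (hA : (LA.all fun e => chkEmb D.rank D.nroots W G S P E MO (nat_lit 6) (nat_lit 11) TA2.G TA2.S TA2.P TA2.E e.1 e.2.1 e.2.2) = true)
    (hB : (LB.all fun e => chkEmb D.rank D.nroots W G S P E MO (nat_lit 8) (nat_lit 33) TB2.G TB2.S TB2.P TB2.E e.1 e.2.1 e.2.2) = true)
    (hO : chkPairs D.rank (fun i j => chkOrth D.rank D.nroots W G S P E MO i j) (LA ++ LB) = true)
    {X : ℕ → F → B} (hX : CT1 D (cO MO) X) : CT2 D (etF E) (cO MO) X := by
  have hG := h.good
  have key : ∀ e ∈ LA ++ LB, ∀ q, InR D (cO MO) e.1 e.2.1 q → NCr D (etF E) X e.1 q ∧ NCr D (etF E) X e.2.1 q := by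
    intro e he q hq
    rcases List.mem_append.1 he with he | he
    · have h1 := List.all_eq_true.1 hA e he
      have h2 : Emb D chevA2 (etF E) (etF TA2.E) (cO MO) e.1 e.2.1 (tN e.2.2) := emb_of_chk h TA2.chkR rfl h1
      exact emb_nc hX TA2.good TA2.ext TA2.cw TA2.pairs h2 hq
    · have h1 := List.all_eq_true.1 hB e he
      have h2 : Emb D chevB2 (etF E) (etF TB2.E) (cO MO) e.1 e.2.1 (tN e.2.2) := emb_of_chk h TB2.chkR rfl h1
      exact emb_nc hX TB2.good TB2.ext TB2.cw TB2.pairs h2 hq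
  have hO1 : ∀ i : Fin D.rank, ((LA ++ LB).any fun e => Nat.beq e.1 i || Nat.beq e.2.1 i) = true ∧
      ∀ j : Fin D.rank, i ≠ j → ((LA ++ LB).any fun e => (Nat.beq e.1 i && Nat.beq e.2.1 j) || (Nat.beq e.1 j && Nat.beq e.2.1 i)) = true ∨
        chkOrth D.rank D.nroots W G S P E MO i j = true := by
    intro i
    have h1 := allB_spec hO i i.2
    rw [Bool.and_eq_true] at h1
    refine ⟨h1.1, fun j hij => ?_⟩
    have h2 := allB_spec h1.2 j j.2
    rw [bneg (fun h => hij (Fin.ext h)), cond_false, Bool.or_eq_true] at h2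
    exact h2
  refine ct2_of_ct1 hG hX ?_ ?_
  · intro i
    have h1 := (hO1 i).1
    rw [List.any_eq_true] at h1
    obtain ⟨e, he, h2⟩ := h1
    rw [Bool.or_eq_true] at h2
    rcases h2 with h2 | h2
    · have h3 : e.1 = i := Fin.ext (Nat.eq_of_beq_eq_true h2)
      exact ⟨e.2.1, fun q hq => by rw [← h3] at hq ⊢; exact (key e he q hq).1⟩
    · have h3 : e.2.1 = i := Fin.ext (Nat.eq_of_beq_eq_true h2)
      exact ⟨e.1, fun q hq => by rw [← h3] at hq ⊢; exact (key e he q hq.symm).2⟩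
  · intro i j hij
    rcases (hO1 i).2 j hij with h1 | h1
    · left
      rw [List.any_eq_true] at h1
      obtain ⟨e, he, h2⟩ := h1
      rw [Bool.or_eq_true, Bool.and_eq_true, Bool.and_eq_true] at h2
      intro q hq
      rcases h2 with ⟨h2, h3⟩ | ⟨h2, h3⟩
      · have h4 : e.1 = i := Fin.ext (Nat.eq_of_beq_eq_true h2)
        have h5 : e.2.1 = j := Fin.ext (Nat.eq_of_beq_eq_true h3)
        rw [← h4, ← h5] at hq
        rw [← h4]
        exact (key e he q hq).1
      · have h4 : e.1 = j := Fin.ext (Nat.eq_of_beq_eq_true h2)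
        have h5 : e.2.1 = i := Fin.ext (Nat.eq_of_beq_eq_true h3)
        rw [← h4, ← h5] at hq
        rw [← h5]
        exact (key e he q hq.symm).2
    · right
      exact orth_of_chk h h1

end

/-! ### tables -/

namespace TD4
def EA : List (Fin 4 × Fin 4 × List ℕ) := [(0, 1, [nat_lit 4, nat_lit 5, nat_lit 9, nat_lit 14, nat_lit 18, nat_lit 19]), (1, 2, [nat_lit 7, nat_lit 9, nat_lit 10, nat_lit 13, nat_lit 14, nat_lit 16]), (1, 3, [nat_lit 8, nat_lit 9, nat_lit 11, nat_lit 12, nat_lit 14, nat_lit 15])]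
def EB : List (Fin 4 × Fin 4 × List ℕ) := []
theorem c_ea : (EA.all fun e => chkEmb (nat_lit 4) (nat_lit 24) (nat_lit 11) G S P E MO (nat_lit 6) (nat_lit 11) TA2.G TA2.S TA2.P TA2.E e.1 e.2.1 e.2.2) = true := by decide +kernel
theorem c_eb : (EB.all fun e => chkEmb (nat_lit 4) (nat_lit 24) (nat_lit 11) G S P E MO (nat_lit 8) (nat_lit 33) TB2.G TB2.S TB2.P TB2.E e.1 e.2.1 e.2.2) = true := by decide +kernel
theorem c_or : chkPairs (nat_lit 4) (fun i j => chkOrth (nat_lit 4) (nat_lit 24) (nat_lit 11) G S P E MO i j) (EA ++ EB) = true := by decide +kernel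
theorem ct2 {F : Type*} [Field F] {B : Type*} [Group B] {X : ℕ → F → B} (hX : CT1 chevD4 (cO MO) X) : CT2 chevD4 (etF E) (cO MO) X :=
  ct2_of_tables chkR c_ea c_eb c_or hX
end TD4

namespace TF4
def EA : List (Fin 4 × Fin 4 × List ℕ) := [(0, 1, [nat_lit 13, nat_lit 14, nat_lit 20, nat_lit 27, nat_lit 33, nat_lit 34]), (2, 3, [nat_lit 21, nat_lit 22, nat_lit 23, nat_lit 24, nat_lit 25, nat_lit 26])]
def EB : List (Fin 4 × Fin 4 × List ℕ) := [(1, 2, [nat_lit 17, nat_lit 19, nat_lit 20, nat_lit 22, nat_lit 25, nat_lit 27, nat_lit 28, nat_lit 30])]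
theorem c_ea : (EA.all fun e => chkEmb (nat_lit 4) (nat_lit 48) (nat_lit 33) G S P E MO (nat_lit 6) (nat_lit 11) TA2.G TA2.S TA2.P TA2.E e.1 e.2.1 e.2.2) = true := by decide +kernel
theorem c_eb : (EB.all fun e => chkEmb (nat_lit 4) (nat_lit 48) (nat_lit 33) G S P E MO (nat_lit 8) (nat_lit 33) TB2.G TB2.S TB2.P TB2.E e.1 e.2.1 e.2.2) = true := by decide +kernel
theorem c_or : chkPairs (nat_lit 4) (fun i j => chkOrth (nat_lit 4) (nat_lit 48) (nat_lit 33) G S P E MO i j) (EA ++ EB) = true := by decide +kernel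
theorem ct2 {F : Type*} [Field F] {B : Type*} [Group B] {X : ℕ → F → B} (hX : CT1 chevF4 (cO MO) X) : CT2 chevF4 (etF E) (cO MO) X :=
  ct2_of_tables chkR c_ea c_eb c_or hX
end TF4

namespace TE6
def EA : List (Fin 6 × Fin 6 × List ℕ) := [(0, 2, [nat_lit 14, nat_lit 15, nat_lit 29, nat_lit 42, nat_lit 56, nat_lit 57]), (1, 3, [nat_lit 24, nat_lit 25, nat_lit 32, nat_lit 39, nat_lit 46, nat_lit 47]), (2, 3, [nat_lit 28, nat_lit 29, nat_lit 32, nat_lit 39, nat_lit 42, nat_lit 43]), (3, 4, [nat_lit 31, nat_lit 32, nat_lit 34, nat_lit 37, nat_lit 39, nat_lit 40]), (4, 5, [nat_lit 33, nat_lit 34, nat_lit 35, nat_lit 36, nat_lit 37, nat_lit 38])]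
def EB : List (Fin 6 × Fin 6 × List ℕ) := []
theorem c_ea : (EA.all fun e => chkEmb (nat_lit 6) (nat_lit 72) (nat_lit 11) G S P E MO (nat_lit 6) (nat_lit 11) TA2.G TA2.S TA2.P TA2.E e.1 e.2.1 e.2.2) = true := by decide +kernel
theorem c_eb : (EB.all fun e => chkEmb (nat_lit 6) (nat_lit 72) (nat_lit 11) G S P E MO (nat_lit 8) (nat_lit 33) TB2.G TB2.S TB2.P TB2.E e.1 e.2.1 e.2.2) = true := by decide +kernel
theorem c_or : chkPairs (nat_lit 6) (fun i j => chkOrth (nat_lit 6) (nat_lit 72) (nat_lit 11) G S P E MO i j) (EA ++ EB) = true := by decide +kernel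
theorem ct2 {F : Type*} [Field F] {B : Type*} [Group B] {X : ℕ → F → B} (hX : CT1 chevE6 (cO MO) X) : CT2 chevE6 (etF E) (cO MO) X :=
  ct2_of_tables chkR c_ea c_eb c_or hX
end TE6

namespace TE7
def EA : List (Fin 7 × Fin 7 × List ℕ) := [(0, 2, [nat_lit 31, nat_lit 32, nat_lit 52, nat_lit 73, nat_lit 93, nat_lit 94]), (1, 3, [nat_lit 46, nat_lit 47, nat_lit 56, nat_lit 69, nat_lit 78, nat_lit 79]), (2, 3, [nat_lit 51, nat_lit 52, nat_lit 56, nat_lit 69, nat_lit 73, nat_lit 74]), (3, 4, [nat_lit 55, nat_lit 56, nat_lit 59, nat_lit 66, nat_lit 69, nat_lit 70]), (4, 5, [nat_lit 58, nat_lit 59, nat_lit 61, nat_lit 64, nat_lit 66, nat_lit 67]), (5, 6, [nat_lit 60, nat_lit 61, nat_lit 62, nat_lit 63, nat_lit 64, nat_lit 65])]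
def EB : List (Fin 7 × Fin 7 × List ℕ) := []
theorem c_ea : (EA.all fun e => chkEmb (nat_lit 7) (nat_lit 126) (nat_lit 11) G S P E MO (nat_lit 6) (nat_lit 11) TA2.G TA2.S TA2.P TA2.E e.1 e.2.1 e.2.2) = true := by decide +kernel
theorem c_eb : (EB.all fun e => chkEmb (nat_lit 7) (nat_lit 126) (nat_lit 11) G S P E MO (nat_lit 8) (nat_lit 33) TB2.G TB2.S TB2.P TB2.E e.1 e.2.1 e.2.2) = true := by decide +kernel
theorem c_or : chkPairs (nat_lit 7) (fun i j => chkOrth (nat_lit 7) (nat_lit 126) (nat_lit 11) G S P E MO i j) (EA ++ EB) = true := by decide +kernel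
theorem ct2 {F : Type*} [Field F] {B : Type*} [Group B] {X : ℕ → F → B} (hX : CT1 chevE7 (cO MO) X) : CT2 chevE7 (etF E) (cO MO) X :=
  ct2_of_tables chkR c_ea c_eb c_or hX
end TE7

namespace TE8
def EA : List (Fin 8 × Fin 8 × List ℕ) := [(0, 2, [nat_lit 76, nat_lit 77, nat_lit 104, nat_lit 135, nat_lit 162, nat_lit 163]), (1, 3, [nat_lit 97, nat_lit 98, nat_lit 109, nat_lit 130, nat_lit 141, nat_lit 142]), (2, 3, [nat_lit 103, nat_lit 104, nat_lit 109, nat_lit 130, nat_lit 135, nat_lit 136]), (3, 4, [nat_lit 108, nat_lit 109, nat_lit 113, nat_lit 126, nat_lit 130, nat_lit 131]), (4, 5, [nat_lit 112, nat_lit 113, nat_lit 116, nat_lit 123, nat_lit 126, nat_lit 127]), (5, 6, [nat_lit 115, nat_lit 116, nat_lit 118, nat_lit 121, nat_lit 123, nat_lit 124]), (6, 7, [nat_lit 117, nat_lit 118, nat_lit 119, nat_lit 120, nat_lit 121, nat_lit 122])]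
def EB : List (Fin 8 × Fin 8 × List ℕ) := []
theorem c_ea : (EA.all fun e => chkEmb (nat_lit 8) (nat_lit 240) (nat_lit 11) G S P E MO (nat_lit 6) (nat_lit 11) TA2.G TA2.S TA2.P TA2.E e.1 e.2.1 e.2.2) = true := by decide +kernel
theorem c_eb : (EB.all fun e => chkEmb (nat_lit 8) (nat_lit 240) (nat_lit 11) G S P E MO (nat_lit 8) (nat_lit 33) TB2.G TB2.S TB2.P TB2.E e.1 e.2.1 e.2.2) = true := by decide +kernel
theorem c_or : chkPairs (nat_lit 8) (fun i j => chkOrth (nat_lit 8) (nat_lit 240) (nat_lit 11) G S P E MO i j) (EA ++ EB) = true := by decide +kernel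
theorem ct2 {F : Type*} [Field F] {B : Type*} [Group B] {X : ℕ → F → B} (hX : CT1 chevE8 (cO MO) X) : CT2 chevE8 (etF E) (cO MO) X :=
  ct2_of_tables chkR c_ea c_eb c_or hX
end TE8


/-! ### the presentation -/

section
variable {D : ChevalleyDatum} {N : ℕ} {η : ℕ → ℕ → ℤ} {rc : ℕ → ℕ → ℤ} {K : Type*} [Field K]

/-- the Curtis-Tits group is isomorphic to Steinberg's group -/
theorem ct_iso [Finite K] (hG : Good D N η rc) (hE : Ext D rc) (hC : CWt D η)
    (hP : ∀ i < D.rank, PairOK D (D.simple i) ∧ PairOK D (D.neg (D.simple i)))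
    (hlen : ∀ r < D.nroots, ∀ s < D.nroots, (D.chainEntry r s).length ≤ 2) (hdp : DomPairs D rc)
    (hcr : ∀ r < D.nroots, ∀ k < D.rank, cor D r k = 0 ↔ rc r k = 0)
    (hct : ∀ {X : ℕ → K → D.CurtisTitsGroup K}, CT1 D rc X → CT2 D η rc X) :
    ∃ e : D.CurtisTitsGroup K ≃* D.SteinbergGroup K,
      ∀ (i j r : ℕ) (t : K), D.InRankTwoSub i j r →
        e (PresentedGroup.mk (D.curtisTitsRels K) (D.stX r t)) = D.stGen K r t := by
  classical
  have hin : ∀ i j r : ℕ, D.InRankTwoSub i j r ↔ ∃ (hi : i < D.rank) (hj : j < D.rank), InR D rc ⟨i, hi⟩ ⟨j, hj⟩ r := by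
    intro i j r
    constructor
    · rintro ⟨h1, h2, h3, h4⟩
      exact ⟨h2, h3, h1, fun k hk h5 h6 => (hcr r h1 k hk).1 (h4 k hk h5 h6)⟩
    · rintro ⟨h2, h3, h1, h4⟩
      exact ⟨h1, h2, h3, fun k hk h5 h6 => (hcr r h1 k hk).2 (h4 k hk h5 h6)⟩
  have hin' : ∀ (i j : Fin D.rank) (r : ℕ), InR D rc i j r → D.InRankTwoSub i j r := fun i j r h => (hin i j r).2 ⟨i.2, j.2, h⟩
  -- the commutator terms stay in the subsystem
  have hterm : ∀ (i j : Fin D.rank) (r s : ℕ), InR D rc i j r → InR D rc i j s → ∀ t u : K, ∀ c ∈ D.commWord K r s t u, InR D rc i j c.1 := by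
    intro i j r s hr hs t u c hc
    unfold ChevalleyDatum.commWord at hc
    rw [List.mem_map] at hc
    obtain ⟨d, hd, rfl⟩ := hc
    obtain ⟨hd1, hd2, hd3, hd4⟩ := hG.commTerms_spec hr.1 hs.1 d hd
    refine ⟨hd1, fun k hk hki hkj => ?_⟩
    rw [hd4 k hk, hr.2 k hk hki hkj, hs.2 k hk hki hkj, mul_zero, mul_zero, add_zero]
  -- root elements of the Curtis-Tits group
  let m := PresentedGroup.mk (D.curtisTitsRels K)
  have hone : ∀ g ∈ D.curtisTitsRels K, m g = 1 := fun g hg => PresentedGroup.one_of_mem hg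
  have hX1 : CT1 D rc (mX m) := by
    refine ⟨fun i j r hr t u => ?_, fun i j r hr s hs h1 h2 t u => ?_⟩
    · have h3 := hone _ (Or.inl (Or.inl (Or.inr ⟨i, j, r, t, u, hin' i j r hr, rfl⟩)))
      rw [map_mul, map_mul, map_inv, mul_inv_eq_one] at h3
      exact h3.symm
    · have h3 := hone _ (Or.inl (Or.inr ⟨i, j, r, s, t, u, hin' i j r hr, hin' i j s hs, h1, h2, rfl⟩))
      rw [map_mul, map_mul, map_mul, map_mul, map_inv, map_inv, map_inv, m_stWord, mul_inv_eq_one] at h3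
      change (mX m s u)⁻¹ * (mX m r t)⁻¹ * mX m s u * mX m r t = _ at h3
      rw [← h3]; group
  have hX2 := hct hX1
  obtain ⟨Y, hY, hYX, hY1⟩ := ct_extend hG hE hlen hdp hX2
  obtain ⟨τ, hτ⟩ := sc_lift hG hY
  obtain ⟨e, he⟩ := sc_equiv (K := K) hG hE hC hP
  let ψ : D.SteinbergGroup K →* D.CurtisTitsGroup K := τ.comp e.symm.toMonoidHom
  have hψ : ∀ r < D.nroots, ∀ t, ψ (D.stGen K r t) = Y r t := by
    intro r hr t
    have h2 : e.symm (D.stGen K r t) = D.scGen K r t := by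
      rw [MulEquiv.symm_apply_eq]; exact (he r t).symm
    change τ (e.symm (D.stGen K r t)) = _
    rw [h2]
    exact hτ r hr t
  -- the other direction
  have hAB : ∀ g ∈ D.steinbergRelsAB K, PresentedGroup.mk (D.steinbergRels K) g = 1 :=
    fun g hg => PresentedGroup.one_of_mem (AB_le hg)
  have hSt : RD D (mX (PresentedGroup.mk (D.steinbergRels K))) := rd_mX hAB
  let sg : ℕ → K → D.SteinbergGroup K := mX (PresentedGroup.mk (D.steinbergRels K))
  have hsg : ∀ r t, sg r t = D.stGen K r t := fun r t => rfl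
  let Xs : ℕ → K → D.SteinbergGroup K := fun r t => if ∃ i j : ℕ, D.InRankTwoSub i j r then sg r t else 1
  have hXs : ∀ (i j : Fin D.rank) (r : ℕ), InR D rc i j r → ∀ t, Xs r t = sg r t := fun i j r hr t => if_pos ⟨i, j, hin' i j r hr⟩
  have hXs' : ∀ (i j r : ℕ), D.InRankTwoSub i j r → ∀ t, Xs r t = sg r t := fun i j r hr t => if_pos ⟨i, j, hr⟩
  have hXsge : ∀ r, ¬ r < D.nroots → ∀ t, Xs r t = 1 := fun r hr t => if_neg (by
    rintro ⟨i, j, h1, -⟩; exact hr h1)
  let f : Fin D.nroots × K → D.SteinbergGroup K := fun p => Xs p.1 p.2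
  have hf : mX (FreeGroup.lift f) = Xs := lift_stX f (fun r t => rfl) hXsge
  have e1 : ∀ r t, FreeGroup.lift f (D.stX r t) = Xs r t := fun r t => congrFun (congrFun hf r) t
  have hrel : ∀ g ∈ D.curtisTitsRels K, FreeGroup.lift f g = 1 := by
    rintro g (((⟨r, t, hr, hn, rfl⟩ | ⟨i, j, r, t, u, hr, rfl⟩) | ⟨i, j, r, s, t, u, hr, hs, h1, h2, rfl⟩) | ⟨i, j, r, t, u, hr, ht, hu, rfl⟩)
    · rw [e1]
      exact if_neg (by rintro ⟨i, j, h⟩; exact hn i j h)
    · rw [map_mul, map_mul, map_inv, e1, e1, e1, hXs' i j r hr, hXs' i j r hr, hXs' i j r hr, mul_inv_eq_one]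
      exact (hSt.add r hr.1 t u).symm
    · obtain ⟨hi, hj, hr'⟩ := (hin i j r).1 hr
      obtain ⟨_, _, hs'⟩ := (hin i j s).1 hs
      have h3 : xw Xs (D.commWord K r s t u) = xw sg (D.commWord K r s t u) := by
        unfold xw
        congr 1
        apply List.map_congr_left
        intro c hc
        exact hXs _ _ _ (hterm _ _ r s hr' hs' t u c hc) _
      rw [map_mul, map_mul, map_mul, map_mul, map_inv, map_inv, map_inv, m_stWord, hf, e1, e1, mul_inv_eq_one,
        hXs' i j r hr, hXs' i j s hs, h3]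
      have h4 := hSt.comm r hr.1 s hs.1 h1 h2 t u
      change sg s u * sg r t = sg r t * sg s u * xw sg (D.commWord K r s t u) at h4
      rw [mul_assoc _ (sg s u), h4]
      group
    · obtain ⟨hi, hj, hr'⟩ := (hin i j r).1 hr
      have hrn := hr'.neg hG
      have h3 : ∀ c : K, hX D Xs r c = hX D sg r c := by
        intro c
        unfold hX nX
        simp only [hXs _ _ _ hr', hXs _ _ _ hrn]
      rw [map_mul, map_mul, map_inv, m_stH, m_stH, m_stH, hf, h3, h3, h3]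
      have h4 : PresentedGroup.mk (D.steinbergRels K) (D.stH r t * D.stH r u * (D.stH r (t * u))⁻¹) = 1 :=
        PresentedGroup.one_of_mem (Or.inr ⟨r, t, u, hr.1, ht, hu, rfl⟩)
      rw [map_mul, map_mul, map_inv, m_stH, m_stH, m_stH] at h4
      exact h4
  let θ : D.CurtisTitsGroup K →* D.SteinbergGroup K := PresentedGroup.toGroup hrel
  have hθ : ∀ r t, θ (mX m r t) = Xs r t := fun r t => e1 r t
  -- `ψ ∘ θ = id`
  have hpt : ∀ x, ψ (θ x) = x := by
    have h1 : (⊤ : Subgroup (D.CurtisTitsGroup K)) ≤ MonoidHom.eqLocus (ψ.comp θ) (MonoidHom.id _) := by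
      rw [← US_mX (m := m) (PresentedGroup.mk_surjective _), US_le]
      intro r hr t
      change ψ (θ (mX m r t)) = mX m r t
      rw [hθ]
      by_cases h : ∃ i j : ℕ, D.InRankTwoSub i j r
      · obtain ⟨i, j, hij⟩ := h
        obtain ⟨hi, hj, hr'⟩ := (hin i j r).1 hij
        rw [hXs' i j r hij, hsg, hψ r hr, hYX _ _ _ hr']
      · have h2 : Xs r t = 1 := if_neg h
        rw [h2, map_one]
        push Not at h
        exact (hone _ (Or.inl (Or.inl (Or.inl ⟨r, t, hr, h, rfl⟩)))).symm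
    intro x
    exact h1 (Subgroup.mem_top x)
  -- `θ ∘ ψ = id`
  have htp : ∀ y, θ (ψ y) = y := by
    let H : Subgroup (D.SteinbergGroup K) := MonoidHom.eqLocus (θ.comp ψ) (MonoidHom.id _)
    have hR2 : ∀ (i j : Fin D.rank) (r : ℕ), InR D rc i j r → ∀ t, sg r t ∈ H := by
      intro i j r hr t
      change θ (ψ (sg r t)) = sg r t
      rw [hsg, hψ r hr.1, hYX _ _ _ hr, hθ, hXs _ _ _ hr]; rfl
    have hall : ∀ r < D.nroots, ∀ t, sg r t ∈ H := by
      refine hG.root_induction (p := fun r => ∀ t, sg r t ∈ H) ?_ ?_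
      · intro i hi t
        exact hR2 ⟨i, hi⟩ ⟨i, hi⟩ _ (InR.simple hG _ _) t
      · intro i hi r hr ih t
        have h0 := InR.simple hG ⟨i, hi⟩ ⟨i, hi⟩
        have hn : nX D sg (D.simple i) 1 ∈ H :=
          mul_mem (mul_mem (hR2 _ _ _ h0 _) (hR2 _ _ _ (h0.neg hG) _)) (hR2 _ _ _ h0 _)
        have h1 := rd_nc hG hE hC hP hSt ⟨i, hi⟩ hr (((η i r : ℤ) : K) * t)
        rw [← mul_assoc, hG.etaF_sq hi hr, one_mul] at h1
        change sg (D.reflectRoot i r) t ∈ H
        have h2 : sg (D.reflectRoot i r) t = nX D sg (D.simple i) 1 * sg r (((η i r : ℤ) : K) * t) * (nX D sg (D.simple i) 1)⁻¹ := h1.symm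
        rw [h2]
        exact mul_mem (mul_mem hn (ih _)) (inv_mem hn)
    have h1 : (⊤ : Subgroup (D.SteinbergGroup K)) ≤ H := by
      rw [← US_mX (m := PresentedGroup.mk (D.steinbergRels K)) (PresentedGroup.mk_surjective _), US_le]
      exact fun r hr t => hall r hr t
    intro y
    exact h1 (Subgroup.mem_top y)
  refine ⟨{ toFun := θ, invFun := ψ, left_inv := hpt, right_inv := htp, map_mul' := θ.map_mul }, fun i j r t hr => ?_⟩
  change θ (mX m r t) = _
  rw [hθ, hXs' i j r hr]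
  rfl

end
end Cfsg.Agent.H6
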