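import Cfsg.Prelude.Def_Chevalley

/-!
Tables for the Chevalley datum of type A2.
-/

set_option autoImplicit false

namespace Cfsg.Agent.H6
open Cfsg.Lie

def chevA2SimpleIdx : Array ℕ := #[4, 3]

def chevA2NegIdx : Array ℕ := #[5, 4, 3, 2, 1, 0]

def chevA2Coroot : Array (Array ℤ) := #[#[-1, -1], #[-1, 0], #[0, -1], #[0, 1], #[1, 0], #[1, 1]]

def chevA2CartanSR : Array (Array ℤ) := #[#[-1, -2, 1, -1, 2, 1], #[-1, 1, -2, 2, -1, 1]]

def chevA2Chain0 : Array (ℕ × Array (ℕ × ℤ)) := #[(3, #[(1, 1)]), (4, #[(2, -1)])]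
def chevA2Chain1 : Array (ℕ × Array (ℕ × ℤ)) := #[(2, #[(0, 1)]), (5, #[(3, -1)])]
def chevA2Chain2 : Array (ℕ × Array (ℕ × ℤ)) := #[(1, #[(0, -1)]), (5, #[(4, 1)])]
def chevA2Chain3 : Array (ℕ × Array (ℕ × ℤ)) := #[(0, #[(1, -1)]), (4, #[(5, 1)])]
def chevA2Chain4 : Array (ℕ × Array (ℕ × ℤ)) := #[(0, #[(2, 1)]), (3, #[(5, -1)])]
def chevA2Chain5 : Array (ℕ × Array (ℕ × ℤ)) := #[(1, #[(3, 1)]), (2, #[(4, -1)])]

def chevA2Chain : Array (Array (ℕ × Array (ℕ × ℤ))) := #[chevA2Chain0, chevA2Chain1, chevA2Chain2, chevA2Chain3, chevA2Chain4, chevA2Chain5]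

/-- The Chevalley datum of type A2 (rank 2, 6 roots). -/
def chevA2 : ChevalleyDatum where
  rank := 2
  nroots := 6
  simpleIdx := chevA2SimpleIdx
  negIdx := chevA2NegIdx
  coroot := chevA2Coroot
  cartanSR := chevA2CartanSR
  chain := chevA2Chain

end Cfsg.Agent.H6

/- roots of type A2, index: coefficients on the fundamental roots
0: [-1, -1]
1: [-1, 0]
2: [0, -1]
3: [0, 1]
4: [1, 0]
5: [1, 1]
-/
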