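import Cfsg.Agent.H6.WPoincTab
import Cfsg.Agent.H6.TwWr
import Cfsg.Agent.H6.TwCard
import Cfsg.Agent.H22.WeylEquiv

/-!
The sums over the fixed elements of the Weyl group, and the orders of the twisted groups.
-/

set_option autoImplicit false
set_option linter.unusedSectionVars false
set_option maxHeartbeats 400000
set_option maxRecDepth 10000

namespace Cfsg.Agent.H6
open Cfsg.Lie

theorem len_equiv {W W' ι ι' : Type*} [Group W] [Group W'] {s : ι → W} {s' : ι' → W'} (hs : GenInv s) (hs' : GenInv s')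
    (φ : W ≃* W') (f : ι ≃ ι') (h : ∀ i, φ (s i) = s' (f i)) (w : W) : len s' (φ w) = len s w := by
  have key : ∀ L : List ι, φ (wp s L) = wp s' (L.map f) := by
    intro L
    induction L with
    | nil => simp
    | cons i L ih => rw [wp_cons, map_mul, ih, h, List.map_cons, wp_cons]
  apply le_antisymm
  · obtain ⟨L, hL, rfl⟩ := hs.exists_red w
    rw [← hL, key]
    have := len_le (s := s') (L.map f)
    rwa [List.length_map] at this
  · obtain ⟨L, hL, hw⟩ := hs'.exists_red (φ w)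
    rw [← hL]
    have h1 : w = wp s (L.map f.symm) := by
      apply φ.injective
      rw [key, List.map_map, ← hw]
      congr 1
      simp
    rw [h1]
    have := len_le (s := s) (L.map f.symm)
    rwa [List.length_map] at this

section
variable {D : ChevalleyDatum} {N : ℕ} {η : ℕ → ℕ → ℤ} {rc : ℕ → ℕ → ℤ} {F : Type*} [Field F]
  {m : ℕ} {rho inv lam pi : ℕ → ℕ} {ep : ℕ → ℤ} {e : ℕ} {σ : ↥(D.group F) →* ↥(D.group F)}
  {ι : Type} {L : ι → List (Fin D.rank)}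
  (h : TwCtx D N η rc F m rho inv lam pi ep e σ) (hO : TwOrb D N rc rho pi L)
  {D' : ChevalleyDatum} {N' : ℕ} {η' : ℕ → ℕ → ℤ} {rc' : ℕ → ℕ → ℤ} (hG' : Good D' N' η' rc')

theorem wt_mul (φ : hG'.W ≃* h.Wr) (f : Fin D'.rank ≃ ι) (hφ : ∀ i, φ (hG'.s i) = h.wS hO (f i)) {wt : List ℕ}
    (hwt : ∀ i : Fin D'.rank, len h.G.s (h.wJ L (f i)) = wt.getD i 0) {R : Type*} [CommRing R] (q : R) (i : Fin D'.rank) (w : hG'.W)
    (hl : len hG'.s w < len hG'.s (w * hG'.s i)) :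
    q ^ len h.G.s (φ (w * hG'.s i)).1 = q ^ len h.G.s (φ w).1 * q ^ wt.getD i 0 := by
  have h1 : len h.G.s (φ (w * hG'.s i)).1 = len h.G.s (h.wS hO (f i) * (φ w)⁻¹ : h.Wr).1 := by
    rw [← h.G.genInv.len_inv]
    congr 1
    have : (φ (w * hG'.s i))⁻¹ = h.wS hO (f i) * (φ w)⁻¹ := by
      rw [map_mul, mul_inv_rev, hφ, (h.genInvS hO).inv_eq]
    exact congrArg Subtype.val this
  have h2 : len (h.wS hO) (φ w)⁻¹ < len (h.wS hO) (h.wS hO (f i) * (φ w)⁻¹) := by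
    rw [(h.genInvS hO).len_inv, len_equiv hG'.genInv (h.genInvS hO) φ f hφ]
    rw [← (h.genInvS hO).len_inv (h.wS hO (f i) * (φ w)⁻¹), mul_inv_rev, inv_inv, (h.genInvS hO).inv_eq, ← hφ, ← map_mul,
      len_equiv hG'.genInv (h.genInvS hO) φ f hφ]
    exact hl
  have h3 := h.len_wS_mul hO h2
  rw [h1, h3, hwt, ← pow_add, add_comm]
  congr 2
  have : ((φ w)⁻¹ : h.Wr).1 = ((φ w).1)⁻¹ := rfl
  rw [this, h.G.genInv.len_inv]

theorem sum_transport (φ : hG'.W ≃* h.Wr) {R : Type*} [CommRing R] (c : h.Wr → R) :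
    (∑ᶠ w : h.Wr, c w) = ∑ᶠ w : hG'.W, c (φ w) :=
  (finsum_comp_equiv φ.toEquiv (f := c)).symm

end

namespace WE6
variable {K : Type*} [Field K] {q : ℕ}

theorem sum_Wr {σ : ↥(chevE6.group K) →* ↥(chevE6.group K)} (h : Ctx K q σ) {R : Type*} [CommRing R] (x : R) :
    (∑ᶠ w : h.Wr, x ^ len h.G.s w.1) * ((x - 1) ^ 4 * (x + 1) ^ 2) =
      (x ^ 2 - 1) * (x ^ 5 + 1) * (x ^ 6 - 1) * (x ^ 8 - 1) * (x ^ 9 + 1) * (x ^ 12 - 1) := by
  obtain ⟨ψ, hψ⟩ := exists_cox h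
  obtain ⟨ψ', hψ'⟩ := H22.equivF4
  have hφ : ∀ i : Fin chevF4.rank, (ψ'.symm.trans ψ) (TF4.good.s i) = h.wS orbL ((Equiv.refl (Fin 4)) i) := by
    intro i
    rw [← hψ' i, MulEquiv.trans_apply, MulEquiv.symm_apply_apply]
    exact hψ i
  have hwt : ∀ i : Fin chevF4.rank, len h.G.s (h.wJ LL ((Equiv.refl (Fin 4)) i)) = PW4.wt.getD i 0 := by
    intro i
    have key : ∀ i : Fin 4, len h.G.s (h.wJ LL i) = PW4.wt.getD i 0 := by
      intro i
      rw [h.corb_len orbL (TE6.chk.umS h i (ums i)) (nodup i)]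
      fin_cases i <;> rfl
    exact key i
  rw [sum_transport h TF4.good (ψ'.symm.trans ψ),
    PW4.total x (fun w => x ^ len h.G.s ((ψ'.symm.trans ψ) w).1) ?_
      (wt_mul h orbL TF4.good (ψ'.symm.trans ψ) (Equiv.refl (Fin 4)) hφ hwt x)]
  · simp only [H22.hor]; push_cast; ring
  · rw [map_one]
    change x ^ len h.G.s 1 = 1
    rw [h.G.genInv.len_one, pow_zero]

end WE6

namespace WD4a
variable {K : Type*} [Field K] {q : ℕ}

theorem sum_Wr {σ : ↥(chevD4.group K) →* ↥(chevD4.group K)} (h : Ctx K q σ) {R : Type*} [CommRing R] (x : R) :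
    (∑ᶠ w : h.Wr, x ^ len h.G.s w.1) = (1 + x) * (1 + x ^ 3) * (1 + x ^ 4 + x ^ 8) := by
  obtain ⟨ψ, hψ⟩ := exists_cox h
  obtain ⟨ψ', hψ'⟩ := H22.equivG2
  have hφ : ∀ i : Fin chevG2.rank, (ψ'.symm.trans ψ) (TG2.good.s i) = h.wS orbL ((Equiv.refl (Fin 2)) i) := by
    intro i
    rw [← hψ' i, MulEquiv.trans_apply, MulEquiv.symm_apply_apply]
    exact hψ i
  have hwt : ∀ i : Fin chevG2.rank, len h.G.s (h.wJ LL ((Equiv.refl (Fin 2)) i)) = PW2.wt.getD i 0 := by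
    intro i
    have key : ∀ i : Fin 2, len h.G.s (h.wJ LL i) = PW2.wt.getD i 0 := by
      intro i
      rw [h.corb_len orbL (TD4.chk.umS h i (ums i)) (nodup i)]
      fin_cases i <;> rfl
    exact key i
  rw [sum_transport h TG2.good (ψ'.symm.trans ψ),
    PW2.total x (fun w => x ^ len h.G.s ((ψ'.symm.trans ψ) w).1) ?_
      (wt_mul h orbL TG2.good (ψ'.symm.trans ψ) (Equiv.refl (Fin 2)) hφ hwt x)]
  · simp only [H22.hor]; push_cast; ring
  · rw [map_one]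
    change x ^ len h.G.s 1 = 1
    rw [h.G.genInv.len_one, pow_zero]

end WD4a
end Cfsg.Agent.H6
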