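import Cfsg.Agent.H22.Poincare

set_option autoImplicit false
set_option linter.unusedSectionVars false

/-!
# Weighted Poincaré polynomials of the Weyl groups by certified orbits of coweights (after H22.Poincare)
-/

namespace Cfsg.Agent.H6

open Cfsg.Lie
open Cfsg.Agent.H22 (pact punit pvec Wn Wn_mono Wn_top Wn_nil pvec_one pvec_eq_iff pvec_mul pvec_mul_s rc_Wn mem_Wn_of_pvec len_mul_of_min)

/-- the check of an orbit certificate with weights -/
def wpchk (A : List (List ℤ)) (wt : List ℕ) (r k : ℕ) (I : List ℕ) (T : List (List (List ℤ × ℕ))) : Bool :=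
  (T.getD 0 [] == [(punit r k, 0)]) &&
  ((List.range T.length).all fun n => (T.getD n []).all fun x => I.all fun i =>
    ((T.getD (n + 1) []).map Prod.fst).contains (pact A i x.1) || ((T.getD (n - 1) []).map Prod.fst).contains (pact A i x.1) ||
    ((T.getD n []).map Prod.fst).contains (pact A i x.1)) &&
  ((List.range (T.length - 1)).all fun n => (T.getD (n + 1) []).all fun x => I.any fun i =>
    (T.getD n []).any fun y => (y.1 == pact A i x.1) && (pact A i y.1 == x.1) && (y.2 + wt.getD i 0 == x.2)) &&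
  decide ((T.flatten.map Prod.fst).Nodup)

/-- the polynomial of a certificate: multiplicities of the weights -/
def wcnt (T : List (List (List ℤ × ℕ))) (m : ℕ) : List ℕ :=
  (List.range m).map fun e => (T.flatten.map Prod.snd).count e

theorem sum_map_pow {R : Type*} [CommRing R] (q : R) : ∀ l : List ℕ, ∀ m, (∀ e ∈ l, e < m) →
    (l.map fun e => q ^ e).sum = H22.hor q ((List.range m).map fun e => l.count e) := by
  have hh : ∀ (f : ℕ → ℕ) (m : ℕ), H22.hor q ((List.range m).map f) = ∑ e ∈ Finset.range m, (f e : R) * q ^ e := by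
    intro f m
    induction m generalizing f with
    | zero => simp [H22.hor]
    | succ m ih =>
      rw [List.range_succ_eq_map, List.map_cons, List.map_map, H22.hor, ih (f ∘ Nat.succ), Finset.sum_range_succ', Finset.mul_sum,
        pow_zero, mul_one, add_comm]
      congr 1
      apply Finset.sum_congr rfl
      intro e _
      rw [pow_succ]
      simp only [Function.comp]
      ring
  intro l m hl
  rw [hh]
  induction l with
  | nil => simp
  | cons a l ih =>
    rw [List.map_cons, List.sum_cons, ih fun e he => hl e (List.mem_cons_of_mem _ he)]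
    have h1 : ∀ e, (((a :: l).count e : ℕ) : R) * q ^ e = (if e = a then q ^ e else 0) + ((l.count e : ℕ) : R) * q ^ e := by
      intro e
      rw [List.count_cons]
      by_cases h : e = a
      · subst h; simp; ring
      · rw [if_neg h, if_neg (by simp only [beq_iff_eq]; exact fun h' => h h'.symm)]; simp
    rw [Finset.sum_congr rfl fun e _ => h1 e, Finset.sum_add_distrib, Finset.sum_ite_eq' (Finset.range m) a fun e => q ^ e,
      if_pos (Finset.mem_range.2 (hl a (by simp)))]

section
variable {D : ChevalleyDatum} {N : ℕ} {η : ℕ → ℕ → ℤ} {rc : ℕ → ℕ → ℤ} (hG : Good D N η rc)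

/-- **The factorization step for the weighted Poincaré polynomials** -/
theorem wpoinc_step {A : List (List ℤ)} (hA : ∀ i < D.rank, ∀ j < D.rank, D.cartan i (D.simple j) = (A.getD i []).getD j 0)
    (hAl : ∀ i < D.rank, (A.getD i []).length = D.rank) {I J : List ℕ} {k : ℕ} (hk : k < D.rank)
    (hI : ∀ i ∈ I, i < D.rank)
    (hIJ : ∀ i, i ∈ J ↔ i ∈ I ∧ i ≠ k) {wt : List ℕ} {T : List (List (List ℤ × ℕ))} (hT : wpchk A wt D.rank k I T = true)
    {R : Type*} [CommRing R] (q : R) (c : hG.W → R) (hc1 : c 1 = 1)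
    (hc : ∀ (i : Fin D.rank) (w : hG.W), len hG.s w < len hG.s (w * hG.s i) → c (w * hG.s i) = c w * q ^ wt.getD i 0) :
    (∑ᶠ w ∈ (Wn hG I : Set hG.W), c w) =
      ((T.flatten.map Prod.snd).map fun e => q ^ e).sum * ∑ᶠ w ∈ (Wn hG J : Set hG.W), c w := by
  classical
  have : Fintype hG.W := Fintype.ofFinite _
  -- multiplicativity
  have hcm : ∀ v u : hG.W, len hG.s (v * u) = len hG.s v + len hG.s u → c (v * u) = c v * c u := by
    intro v u
    obtain ⟨L, hL, rfl⟩ := hG.genInv.exists_isRed u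
    revert hL
    induction L using List.reverseRecOn with
    | nil => intro _ _; rw [wp_nil, mul_one, hc1, mul_one]
    | append_singleton L i ih =>
      intro hL h1
      have hL' := hG.genInv.red_of_append_left hL
      have e1 : wp hG.s (L ++ [i]) = wp hG.s L * hG.s i := by rw [wp_append, wp_single]
      have e2 : len hG.s (wp hG.s (L ++ [i])) = L.length + 1 := by rw [hL, List.length_append, List.length_singleton]
      have e3 : len hG.s (wp hG.s L) = L.length := hL'
      rw [e2, e1, ← mul_assoc] at h1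
      have e4 := hG.genInv.len_mul_s_le i (v * wp hG.s L)
      have e5 := hG.genInv.len_mul_le v (wp hG.s L)
      have e6 : len hG.s (v * wp hG.s L) = len hG.s v + len hG.s (wp hG.s L) := by omega
      rw [e1, ← mul_assoc, hc i _ (by omega), ih hL' e6, hc i _ (by rw [← e1]; omega), mul_assoc]
  simp only [wpchk, Bool.and_eq_true, beq_iff_eq, List.all_eq_true, List.mem_range, Bool.or_eq_true,
    List.contains_iff_mem, List.any_eq_true, decide_eq_true_eq] at hT
  obtain ⟨⟨⟨hT0, hT1⟩, hT2⟩, hT3⟩ := hT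
  have hJI : Wn hG J ≤ Wn hG I := Wn_mono hG fun i hi => ((hIJ i).1 hi).1
  have hkJ : k ∉ J := fun h => ((hIJ k).1 h).2 rfl
  have hlt : ∀ n x, x ∈ T.getD n [] → n < T.length := by
    intro n x hx
    by_contra hcon
    rw [List.getD_eq_default _ _ (by omega)] at hx
    simp at hx
  have hmem : ∀ {n : ℕ} {x : List ℤ}, x ∈ (T.getD n []).map Prod.fst → ∃ e, (x, e) ∈ T.getD n [] := by
    intro n x hx
    obtain ⟨⟨y, e⟩, hy, rfl⟩ := List.mem_map.1 hx
    exact ⟨e, hy⟩
  -- uniqueness of the level
  have huniq : ∀ n m x e e', (x, e) ∈ T.getD n [] → (x, e') ∈ T.getD m [] → n = m := by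
    have h0 : ((T.map fun l => l.map Prod.fst).flatten).Nodup := by rw [← List.map_flatten]; exact hT3
    have h1 := (List.nodup_flatten.1 h0).2
    rw [List.pairwise_iff_getElem] at h1
    have h2 : ∀ n m x e e', n < m → (x, e) ∈ T.getD n [] → (x, e') ∈ T.getD m [] → False := by
      intro n m x e e' hnm hx hy
      have hn := hlt n _ hx
      have hm := hlt m _ hy
      have := h1 n m (by simpa using hn) (by simpa using hm) hnm
      rw [List.getD_eq_getElem _ _ hn] at hx
      rw [List.getD_eq_getElem _ _ hm] at hy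
      rw [List.getElem_map, List.getElem_map] at this
      exact this (List.mem_map.2 ⟨_, hx, rfl⟩) (List.mem_map.2 ⟨_, hy, rfl⟩)
    intro n m x e e' hx hy
    rcases lt_trichotomy n m with h | h | h
    · exact (h2 n m x e e' h hx hy).elim
    · exact h
    · exact (h2 m n x e' e h hy hx).elim
  -- Lemma D
  have hD : ∀ w ∈ Wn hG I, ∃ n ≤ len hG.s w, ∃ e, (pvec hG k w, e) ∈ T.getD n [] := by
    intro w hw
    obtain ⟨L, h1, h2, rfl⟩ := exists_red_of_mem_closure hG.genInv hG.exchange hw
    rw [h2]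
    clear h2 hw
    induction L using List.reverseRecOn with
    | nil =>
      refine ⟨0, le_refl _, 0, ?_⟩
      rw [wp_nil, pvec_one hG k hk, hT0]
      simp
    | append_singleton L i ih =>
      obtain ⟨n, hn, e, hx⟩ := ih fun j hj => h1 j (by simp [hj])
      have hi : (i : ℕ) ∈ I := h1 i (by simp)
      rw [wp_append, wp_single, pvec_mul_s hG hA hAl hk, List.length_append, List.length_singleton]
      rcases hT1 n (hlt n _ hx) _ hx i hi with (h | h) | h
      · exact ⟨n + 1, by omega, hmem h⟩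
      · exact ⟨n - 1, by omega, hmem h⟩
      · exact ⟨n, by omega, hmem h⟩
  -- Lemma E
  have hE : ∀ n x e, (x, e) ∈ T.getD n [] → ∃ w ∈ Wn hG I, pvec hG k w = x ∧ len hG.s w ≤ n ∧ c w = q ^ e := by
    intro n
    induction n with
    | zero =>
      intro x e hx
      rw [hT0] at hx
      have hx' := List.mem_singleton.1 hx
      rw [Prod.mk.injEq] at hx'
      refine ⟨1, one_mem _, ?_, by rw [hG.genInv.len_one], ?_⟩
      · rw [pvec_one hG k hk]; exact hx'.1.symm
      · rw [hc1, hx'.2, pow_zero]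
    | succ n ih =>
      intro x e hx
      have hn := hlt _ _ hx
      obtain ⟨i, hi, ⟨y, e'⟩, hy, ⟨h1, h2⟩, h3⟩ := hT2 n (by omega) (x, e) hx
      dsimp only at h1 h2 h3
      obtain ⟨w, hw1, hw2, hw3, hw4⟩ := ih _ _ hy
      have hir := hI i hi
      have hwI : w * hG.s ⟨i, hir⟩ ∈ Wn hG I := mul_mem hw1 (Subgroup.subset_closure ⟨⟨i, hir⟩, hi, rfl⟩)
      have hwv : pvec hG k (w * hG.s ⟨i, hir⟩) = x := by
        rw [pvec_mul_s hG hA hAl hk, hw2]
        exact h2
      refine ⟨w * hG.s ⟨i, hir⟩, hwI, hwv, ?_, ?_⟩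
      · have := hG.genInv.len_mul_s_le ⟨i, hir⟩ w
        omega
      · obtain ⟨m, hm, e'', hmx⟩ := hD _ hwI
        rw [hwv] at hmx
        have h4 := huniq _ _ _ _ _ hx hmx
        rw [hc ⟨i, hir⟩ w (by omega), hw4, ← pow_add, ← h3]
  -- minimal representatives
  have hF : ∀ n x e, (x, e) ∈ T.getD n [] →
      (∑ w ∈ Finset.univ.filter (fun w : hG.W => w ∈ Wn hG I ∧ pvec hG k w = x), c w) =
      q ^ e * ∑ w ∈ Finset.univ.filter (fun w : hG.W => w ∈ Wn hG J), c w := by
    intro n x e hx
    obtain ⟨u, huI, hux, hul, huc⟩ := hE n x e hx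
    have hum' : ∀ w ∈ Wn hG I, pvec hG k w = x → len hG.s u ≤ len hG.s w := by
      intro w h1 h2
      obtain ⟨m, hm, e'', hmx⟩ := hD w h1
      rw [h2] at hmx
      have := huniq _ _ _ _ _ hx hmx
      omega
    have hvu : ∀ v ∈ Wn hG J, pvec hG k (v * u) = x := by
      intro v hv
      rw [← hux, pvec_eq_iff]
      intro j
      exact rc_Wn hG hk hkJ hv _
    have hadd := len_mul_of_min hG.genInv hG.exchange (J := {i | (i : ℕ) ∈ J}) (u := u) (fun v hv =>
      hum' _ (mul_mem (hJI hv) huI) (hvu v hv))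
    rw [Finset.mul_sum]
    symm
    refine Finset.sum_bij (fun v _ => v * u) ?_ ?_ ?_ ?_
    · intro v hv
      rw [Finset.mem_filter] at hv ⊢
      exact ⟨Finset.mem_univ _, mul_mem (hJI hv.2) huI, hvu v hv.2⟩
    · intro a _ b _ hab
      exact mul_right_cancel hab
    · intro w hw
      rw [Finset.mem_filter] at hw
      refine ⟨w * u⁻¹, ?_, by group⟩
      rw [Finset.mem_filter]
      refine ⟨Finset.mem_univ _, ?_⟩
      apply mem_Wn_of_pvec hG hk hIJ (mul_mem hw.2.1 (inv_mem huI))
      rw [← mul_inv_cancel u]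
      apply pvec_mul hG hk
      rw [hux, hw.2.2]
    · intro v hv
      rw [Finset.mem_filter] at hv
      rw [hcm v u (hadd v hv.2), huc, mul_comm]
  -- put together
  have e1 : ∀ K : List ℕ, (∑ᶠ w ∈ (Wn hG K : Set hG.W), c w) =
      ∑ w ∈ Finset.univ.filter (fun w : hG.W => w ∈ Wn hG K), c w := by
    intro K
    rw [finsum_mem_eq_finite_toFinset_sum _ (Set.toFinite _)]
    apply Finset.sum_congr
    · ext w; simp
    · intros; rfl
  rw [e1, e1]
  have e2 : (∑ w ∈ Finset.univ.filter (fun w : hG.W => w ∈ Wn hG I), c w) =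
      ∑ x ∈ (T.flatten.map Prod.fst).toFinset, ∑ w ∈ Finset.univ.filter (fun w : hG.W => w ∈ Wn hG I ∧ pvec hG k w = x), c w := by
    rw [← Finset.sum_fiberwise_of_maps_to (s := Finset.univ.filter (fun w : hG.W => w ∈ Wn hG I))
      (t := (T.flatten.map Prod.fst).toFinset) (g := fun w => pvec hG k w)]
    · apply Finset.sum_congr rfl
      intro x _
      rw [Finset.filter_filter]
    · intro w hw
      rw [Finset.mem_filter] at hw
      obtain ⟨n, _, e, hx⟩ := hD w hw.2
      rw [List.mem_toFinset, List.mem_map]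
      have hn := hlt _ _ hx
      rw [List.getD_eq_getElem _ _ hn] at hx
      exact ⟨_, List.mem_flatten.2 ⟨_, List.getElem_mem hn, hx⟩, rfl⟩
  rw [e2, List.sum_toFinset _ hT3, List.map_map]
  rw [← List.sum_map_mul_right]
  congr 1
  rw [List.map_map]
  apply List.map_congr_left
  rintro ⟨x, e⟩ hx
  obtain ⟨l, hl, hxl⟩ := List.mem_flatten.1 hx
  obtain ⟨n, hn, rfl⟩ := List.mem_iff_getElem.1 hl
  exact hF n x e (by rw [List.getD_eq_getElem _ _ hn]; exact hxl)

theorem wpoinc_nil {R : Type*} [CommRing R] (c : hG.W → R) (hc1 : c 1 = 1) :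
    (∑ᶠ w ∈ (Wn hG [] : Set hG.W), c w) = 1 := by
  rw [Wn_nil]
  simp [hc1]

theorem wpoinc_top {I : List ℕ} (h : ∀ i < D.rank, i ∈ I) {R : Type*} [CommRing R] (c : hG.W → R) :
    (∑ᶠ w ∈ (Wn hG I : Set hG.W), c w) = ∑ᶠ w : hG.W, c w := by
  rw [Wn_top hG h]
  simp

end
end Cfsg.Agent.H6
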