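import Cfsg.Agent.H6.WPoinc
import Cfsg.Agent.H6.TabF4
import Cfsg.Agent.H6.TabG2

set_option autoImplicit false
set_option maxRecDepth 100000

/-! Weighted Poincaré polynomials: F4 with weights 1,1,2,2 and G2 with weights 1,3 (generated). -/

namespace Cfsg.Agent.H6
open Cfsg.Lie

namespace PW4
def A : List (List ℤ) := [[.ofNat (nat_lit 2), .negSucc (nat_lit 0), .ofNat (nat_lit 0), .ofNat (nat_lit 0)], [.negSucc (nat_lit 0), .ofNat (nat_lit 2), .negSucc (nat_lit 1), .ofNat (nat_lit 0)], [.ofNat (nat_lit 0), .negSucc (nat_lit 0), .ofNat (nat_lit 2), .negSucc (nat_lit 0)], [.ofNat (nat_lit 0), .ofNat (nat_lit 0), .negSucc (nat_lit 0), .ofNat (nat_lit 2)]]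
theorem hA : ∀ i < 4, ∀ j < 4, chevF4.cartan i (chevF4.simple j) = (A.getD i []).getD j 0 := by decide +kernel
theorem hAl : ∀ i < 4, (A.getD i []).length = 4 := by decide +kernel
def wt : List ℕ := [1, 1, 2, 2]
def T0 : List (List (List ℤ × ℕ)) := [[([.ofNat (nat_lit 0), .ofNat (nat_lit 0), .ofNat (nat_lit 0), .ofNat (nat_lit 1)], nat_lit 0)],
  [([.ofNat (nat_lit 0), .ofNat (nat_lit 0), .ofNat (nat_lit 1), .negSucc (nat_lit 0)], nat_lit 2)],
  [([.ofNat (nat_lit 0), .ofNat (nat_lit 1), .negSucc (nat_lit 0), .ofNat (nat_lit 0)], nat_lit 4)],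
  [([.ofNat (nat_lit 1), .negSucc (nat_lit 0), .ofNat (nat_lit 1), .ofNat (nat_lit 0)], nat_lit 5)],
  [([.negSucc (nat_lit 0), .ofNat (nat_lit 0), .ofNat (nat_lit 1), .ofNat (nat_lit 0)], nat_lit 6), ([.ofNat (nat_lit 1), .ofNat (nat_lit 0), .negSucc (nat_lit 0), .ofNat (nat_lit 1)], nat_lit 7)],
  [([.negSucc (nat_lit 0), .ofNat (nat_lit 1), .negSucc (nat_lit 0), .ofNat (nat_lit 1)], nat_lit 8), ([.ofNat (nat_lit 1), .ofNat (nat_lit 0), .ofNat (nat_lit 0), .negSucc (nat_lit 0)], nat_lit 9)],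
  [([.ofNat (nat_lit 0), .negSucc (nat_lit 0), .ofNat (nat_lit 1), .ofNat (nat_lit 1)], nat_lit 9), ([.negSucc (nat_lit 0), .ofNat (nat_lit 1), .ofNat (nat_lit 0), .negSucc (nat_lit 0)], nat_lit 10)],
  [([.ofNat (nat_lit 0), .ofNat (nat_lit 0), .negSucc (nat_lit 0), .ofNat (nat_lit 2)], nat_lit 11), ([.ofNat (nat_lit 0), .negSucc (nat_lit 0), .ofNat (nat_lit 2), .negSucc (nat_lit 0)], nat_lit 11)],
  [([.ofNat (nat_lit 0), .ofNat (nat_lit 0), .ofNat (nat_lit 1), .negSucc (nat_lit 1)], nat_lit 13), ([.ofNat (nat_lit 0), .ofNat (nat_lit 1), .negSucc (nat_lit 1), .ofNat (nat_lit 1)], nat_lit 13)],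
  [([.ofNat (nat_lit 0), .ofNat (nat_lit 1), .negSucc (nat_lit 0), .negSucc (nat_lit 0)], nat_lit 15), ([.ofNat (nat_lit 1), .negSucc (nat_lit 0), .ofNat (nat_lit 0), .ofNat (nat_lit 1)], nat_lit 14)],
  [([.ofNat (nat_lit 1), .negSucc (nat_lit 0), .ofNat (nat_lit 1), .negSucc (nat_lit 0)], nat_lit 16), ([.negSucc (nat_lit 0), .ofNat (nat_lit 0), .ofNat (nat_lit 0), .ofNat (nat_lit 1)], nat_lit 15)],
  [([.negSucc (nat_lit 0), .ofNat (nat_lit 0), .ofNat (nat_lit 1), .negSucc (nat_lit 0)], nat_lit 17), ([.ofNat (nat_lit 1), .ofNat (nat_lit 0), .negSucc (nat_lit 0), .ofNat (nat_lit 0)], nat_lit 18)],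
  [([.negSucc (nat_lit 0), .ofNat (nat_lit 1), .negSucc (nat_lit 0), .ofNat (nat_lit 0)], nat_lit 19)],
  [([.ofNat (nat_lit 0), .negSucc (nat_lit 0), .ofNat (nat_lit 1), .ofNat (nat_lit 0)], nat_lit 20)],
  [([.ofNat (nat_lit 0), .ofNat (nat_lit 0), .negSucc (nat_lit 0), .ofNat (nat_lit 1)], nat_lit 22)],
  [([.ofNat (nat_lit 0), .ofNat (nat_lit 0), .ofNat (nat_lit 0), .negSucc (nat_lit 0)], nat_lit 24)]]
theorem c0 : wpchk A wt 4 3 [0, 1, 2, 3] T0 = true := by decide +kernel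
theorem b0 : ∀ e ∈ T0.flatten.map Prod.snd, e < 25 := by decide +kernel
theorem l0 : (List.range 25).map (fun e => (T0.flatten.map Prod.snd).count e) = [1, 0, 1, 0, 1, 1, 1, 1, 1, 2, 1, 2, 0, 2, 1, 2, 1, 1, 1, 1, 1, 0, 1, 0, 1] := by decide +kernel
theorem f0 {R : Type*} [CommRing R] (q : R) (c : TF4.good.W → R) (hc1 : c 1 = 1)
    (hc : ∀ (i : Fin chevF4.rank) (w : TF4.good.W), len TF4.good.s w < len TF4.good.s (w * TF4.good.s i) → c (w * TF4.good.s i) = c w * q ^ wt.getD i 0) :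
    (∑ᶠ w ∈ (H22.Wn TF4.good [0, 1, 2, 3] : Set TF4.good.W), c w) =
      H22.hor q [1, 0, 1, 0, 1, 1, 1, 1, 1, 2, 1, 2, 0, 2, 1, 2, 1, 1, 1, 1, 1, 0, 1, 0, 1] * ∑ᶠ w ∈ (H22.Wn TF4.good [0, 1, 2] : Set TF4.good.W), c w := by
  rw [← l0, ← sum_map_pow q _ 25 b0]
  exact wpoinc_step TF4.good hA hAl (by decide) (by decide) (by first | (simp; done) | (simp; omega)) c0 q c hc1 hc
def T1 : List (List (List ℤ × ℕ)) := [[([.ofNat (nat_lit 1), .ofNat (nat_lit 0), .ofNat (nat_lit 0), .ofNat (nat_lit 0)], nat_lit 0)],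
  [([.negSucc (nat_lit 0), .ofNat (nat_lit 1), .ofNat (nat_lit 0), .ofNat (nat_lit 0)], nat_lit 1)],
  [([.ofNat (nat_lit 0), .negSucc (nat_lit 0), .ofNat (nat_lit 2), .ofNat (nat_lit 0)], nat_lit 2)],
  [([.ofNat (nat_lit 0), .ofNat (nat_lit 1), .negSucc (nat_lit 1), .ofNat (nat_lit 2)], nat_lit 4)],
  [([.ofNat (nat_lit 1), .negSucc (nat_lit 0), .ofNat (nat_lit 0), .ofNat (nat_lit 2)], nat_lit 5)],
  [([.negSucc (nat_lit 0), .ofNat (nat_lit 0), .ofNat (nat_lit 0), .ofNat (nat_lit 2)], nat_lit 6)]]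
theorem c1 : wpchk A wt 4 0 [0, 1, 2] T1 = true := by decide +kernel
theorem b1 : ∀ e ∈ T1.flatten.map Prod.snd, e < 7 := by decide +kernel
theorem l1 : (List.range 7).map (fun e => (T1.flatten.map Prod.snd).count e) = [1, 1, 1, 0, 1, 1, 1] := by decide +kernel
theorem f1 {R : Type*} [CommRing R] (q : R) (c : TF4.good.W → R) (hc1 : c 1 = 1)
    (hc : ∀ (i : Fin chevF4.rank) (w : TF4.good.W), len TF4.good.s w < len TF4.good.s (w * TF4.good.s i) → c (w * TF4.good.s i) = c w * q ^ wt.getD i 0) :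
    (∑ᶠ w ∈ (H22.Wn TF4.good [0, 1, 2] : Set TF4.good.W), c w) =
      H22.hor q [1, 1, 1, 0, 1, 1, 1] * ∑ᶠ w ∈ (H22.Wn TF4.good [1, 2] : Set TF4.good.W), c w := by
  rw [← l1, ← sum_map_pow q _ 7 b1]
  exact wpoinc_step TF4.good hA hAl (by decide) (by decide) (by first | (simp; done) | (simp; omega)) c1 q c hc1 hc
def T2 : List (List (List ℤ × ℕ)) := [[([.ofNat (nat_lit 0), .ofNat (nat_lit 1), .ofNat (nat_lit 0), .ofNat (nat_lit 0)], nat_lit 0)],
  [([.ofNat (nat_lit 1), .negSucc (nat_lit 0), .ofNat (nat_lit 2), .ofNat (nat_lit 0)], nat_lit 1)],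
  [([.ofNat (nat_lit 1), .ofNat (nat_lit 1), .negSucc (nat_lit 1), .ofNat (nat_lit 2)], nat_lit 3)],
  [([.ofNat (nat_lit 2), .negSucc (nat_lit 0), .ofNat (nat_lit 0), .ofNat (nat_lit 2)], nat_lit 4)]]
theorem c2 : wpchk A wt 4 1 [1, 2] T2 = true := by decide +kernel
theorem b2 : ∀ e ∈ T2.flatten.map Prod.snd, e < 5 := by decide +kernel
theorem l2 : (List.range 5).map (fun e => (T2.flatten.map Prod.snd).count e) = [1, 1, 0, 1, 1] := by decide +kernel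
theorem f2 {R : Type*} [CommRing R] (q : R) (c : TF4.good.W → R) (hc1 : c 1 = 1)
    (hc : ∀ (i : Fin chevF4.rank) (w : TF4.good.W), len TF4.good.s w < len TF4.good.s (w * TF4.good.s i) → c (w * TF4.good.s i) = c w * q ^ wt.getD i 0) :
    (∑ᶠ w ∈ (H22.Wn TF4.good [1, 2] : Set TF4.good.W), c w) =
      H22.hor q [1, 1, 0, 1, 1] * ∑ᶠ w ∈ (H22.Wn TF4.good [2] : Set TF4.good.W), c w := by
  rw [← l2, ← sum_map_pow q _ 5 b2]
  exact wpoinc_step TF4.good hA hAl (by decide) (by decide) (by first | (simp; done) | (simp; omega)) c2 q c hc1 hc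
def T3 : List (List (List ℤ × ℕ)) := [[([.ofNat (nat_lit 0), .ofNat (nat_lit 0), .ofNat (nat_lit 1), .ofNat (nat_lit 0)], nat_lit 0)],
  [([.ofNat (nat_lit 0), .ofNat (nat_lit 1), .negSucc (nat_lit 0), .ofNat (nat_lit 1)], nat_lit 2)]]
theorem c3 : wpchk A wt 4 2 [2] T3 = true := by decide +kernel
theorem b3 : ∀ e ∈ T3.flatten.map Prod.snd, e < 3 := by decide +kernel
theorem l3 : (List.range 3).map (fun e => (T3.flatten.map Prod.snd).count e) = [1, 0, 1] := by decide +kernel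
theorem f3 {R : Type*} [CommRing R] (q : R) (c : TF4.good.W → R) (hc1 : c 1 = 1)
    (hc : ∀ (i : Fin chevF4.rank) (w : TF4.good.W), len TF4.good.s w < len TF4.good.s (w * TF4.good.s i) → c (w * TF4.good.s i) = c w * q ^ wt.getD i 0) :
    (∑ᶠ w ∈ (H22.Wn TF4.good [2] : Set TF4.good.W), c w) =
      H22.hor q [1, 0, 1] * ∑ᶠ w ∈ (H22.Wn TF4.good [] : Set TF4.good.W), c w := by
  rw [← l3, ← sum_map_pow q _ 3 b3]
  exact wpoinc_step TF4.good hA hAl (by decide) (by decide) (by first | (simp; done) | (simp; omega)) c3 q c hc1 hc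
theorem total {R : Type*} [CommRing R] (q : R) (c : TF4.good.W → R) (hc1 : c 1 = 1)
    (hc : ∀ (i : Fin chevF4.rank) (w : TF4.good.W), len TF4.good.s w < len TF4.good.s (w * TF4.good.s i) → c (w * TF4.good.s i) = c w * q ^ wt.getD i 0) :
    (∑ᶠ w : TF4.good.W, c w) = H22.hor q [1, 0, 1, 0, 1, 1, 1, 1, 1, 2, 1, 2, 0, 2, 1, 2, 1, 1, 1, 1, 1, 0, 1, 0, 1] * (H22.hor q [1, 1, 1, 0, 1, 1, 1] * (H22.hor q [1, 1, 0, 1, 1] * (H22.hor q [1, 0, 1] * 1))) := by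
  rw [← wpoinc_top TF4.good (I := [0, 1, 2, 3]) (by decide) c, f0 q c hc1 hc, f1 q c hc1 hc, f2 q c hc1 hc, f3 q c hc1 hc, wpoinc_nil TF4.good c hc1]
end PW4

namespace PW2
def A : List (List ℤ) := [[.ofNat (nat_lit 2), .negSucc (nat_lit 2)], [.negSucc (nat_lit 0), .ofNat (nat_lit 2)]]
theorem hA : ∀ i < 2, ∀ j < 2, chevG2.cartan i (chevG2.simple j) = (A.getD i []).getD j 0 := by decide +kernel
theorem hAl : ∀ i < 2, (A.getD i []).length = 2 := by decide +kernel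
def wt : List ℕ := [1, 3]
def T0 : List (List (List ℤ × ℕ)) := [[([.ofNat (nat_lit 0), .ofNat (nat_lit 1)], nat_lit 0)],
  [([.ofNat (nat_lit 1), .negSucc (nat_lit 0)], nat_lit 3)],
  [([.negSucc (nat_lit 0), .ofNat (nat_lit 2)], nat_lit 4)],
  [([.ofNat (nat_lit 1), .negSucc (nat_lit 1)], nat_lit 7)],
  [([.negSucc (nat_lit 0), .ofNat (nat_lit 1)], nat_lit 8)],
  [([.ofNat (nat_lit 0), .negSucc (nat_lit 0)], nat_lit 11)]]
theorem c0 : wpchk A wt 2 1 [0, 1] T0 = true := by decide +kernel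
theorem b0 : ∀ e ∈ T0.flatten.map Prod.snd, e < 12 := by decide +kernel
theorem l0 : (List.range 12).map (fun e => (T0.flatten.map Prod.snd).count e) = [1, 0, 0, 1, 1, 0, 0, 1, 1, 0, 0, 1] := by decide +kernel
theorem f0 {R : Type*} [CommRing R] (q : R) (c : TG2.good.W → R) (hc1 : c 1 = 1)
    (hc : ∀ (i : Fin chevG2.rank) (w : TG2.good.W), len TG2.good.s w < len TG2.good.s (w * TG2.good.s i) → c (w * TG2.good.s i) = c w * q ^ wt.getD i 0) :
    (∑ᶠ w ∈ (H22.Wn TG2.good [0, 1] : Set TG2.good.W), c w) =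
      H22.hor q [1, 0, 0, 1, 1, 0, 0, 1, 1, 0, 0, 1] * ∑ᶠ w ∈ (H22.Wn TG2.good [0] : Set TG2.good.W), c w := by
  rw [← l0, ← sum_map_pow q _ 12 b0]
  exact wpoinc_step TG2.good hA hAl (by decide) (by decide) (by first | (simp; done) | (simp; omega)) c0 q c hc1 hc
def T1 : List (List (List ℤ × ℕ)) := [[([.ofNat (nat_lit 1), .ofNat (nat_lit 0)], nat_lit 0)],
  [([.negSucc (nat_lit 0), .ofNat (nat_lit 3)], nat_lit 1)]]
theorem c1 : wpchk A wt 2 0 [0] T1 = true := by decide +kernel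
theorem b1 : ∀ e ∈ T1.flatten.map Prod.snd, e < 2 := by decide +kernel
theorem l1 : (List.range 2).map (fun e => (T1.flatten.map Prod.snd).count e) = [1, 1] := by decide +kernel
theorem f1 {R : Type*} [CommRing R] (q : R) (c : TG2.good.W → R) (hc1 : c 1 = 1)
    (hc : ∀ (i : Fin chevG2.rank) (w : TG2.good.W), len TG2.good.s w < len TG2.good.s (w * TG2.good.s i) → c (w * TG2.good.s i) = c w * q ^ wt.getD i 0) :
    (∑ᶠ w ∈ (H22.Wn TG2.good [0] : Set TG2.good.W), c w) =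
      H22.hor q [1, 1] * ∑ᶠ w ∈ (H22.Wn TG2.good [] : Set TG2.good.W), c w := by
  rw [← l1, ← sum_map_pow q _ 2 b1]
  exact wpoinc_step TG2.good hA hAl (by decide) (by decide) (by first | (simp; done) | (simp; omega)) c1 q c hc1 hc
theorem total {R : Type*} [CommRing R] (q : R) (c : TG2.good.W → R) (hc1 : c 1 = 1)
    (hc : ∀ (i : Fin chevG2.rank) (w : TG2.good.W), len TG2.good.s w < len TG2.good.s (w * TG2.good.s i) → c (w * TG2.good.s i) = c w * q ^ wt.getD i 0) :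
    (∑ᶠ w : TG2.good.W, c w) = H22.hor q [1, 0, 0, 1, 1, 0, 0, 1, 1, 0, 0, 1] * (H22.hor q [1, 1] * 1) := by
  rw [← wpoinc_top TG2.good (I := [0, 1]) (by decide) c, f0 q c hc1 hc, f1 q c hc1 hc, wpoinc_nil TG2.good c hc1]
end PW2
end Cfsg.Agent.H6
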